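import Cfsg.Agent.Helper16.ParityIso

set_option autoImplicit false
open Cfsg

namespace Cfsg.Agent.Helper16

open QuadraticMap Module

section Act
variable {ι : Type} [Fintype ι] [DecidableEq ι] {F : Type*} [Field F]

/-- action of an isometry on vectors -/
def act (Q : (ι → F) → F) (g : ↥(isometryGroup F Q)) (x : ι → F) : ι → F :=
  ((g : GL ι F) : Matrix ι ι F).mulVec x

theorem act_mul (Q : (ι → F) → F) (g h : ↥(isometryGroup F Q)) (x : ι → F) :
    act Q (g * h) x = act Q g (act Q h x) := by
  unfold act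
  rw [Subgroup.coe_mul, Units.val_mul, Matrix.mulVec_mulVec]

theorem act_one (Q : (ι → F) → F) (x : ι → F) : act Q 1 x = x := by
  unfold act
  rw [Subgroup.coe_one, Units.val_one, Matrix.one_mulVec]

theorem act_add (Q : (ι → F) → F) (g : ↥(isometryGroup F Q)) (x y : ι → F) :
    act Q g (x + y) = act Q g x + act Q g y := Matrix.mulVec_add _ _ _

theorem act_smul (Q : (ι → F) → F) (g : ↥(isometryGroup F Q)) (c : F) (x : ι → F) :
    act Q g (c • x) = c • act Q g x := Matrix.mulVec_smul _ _ _

theorem act_Q (Q : (ι → F) → F) (g : ↥(isometryGroup F Q)) (x : ι → F) :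
    Q (act Q g x) = Q x := (mem_isometryGroup_iff _ _).1 g.2 x

theorem act_polar (Q : (ι → F) → F) (g : ↥(isometryGroup F Q)) (x y : ι → F) :
    polar Q (act Q g x) (act Q g y) = polar Q x y := by
  unfold polar
  rw [← act_add, act_Q Q g, act_Q Q g, act_Q Q g]

theorem act_refl (Q : QuadraticForm F (ι → F)) (v : ι → F) (hv : Q v ≠ 0) (x : ι → F) :
    act ⇑Q (reflElt Q v) x = qrefl Q v x := reflElt_mulVec Q v hv x

theorem act_ext (Q : (ι → F) → F) (g h : ↥(isometryGroup F Q)) (hgh : ∀ x, act Q g x = act Q h x) :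
    g = h := by
  apply isom_ext
  apply Matrix.toLin'.injective
  apply LinearMap.ext
  intro x
  rw [Matrix.toLin'_apply, Matrix.toLin'_apply]
  exact hgh x

/-- the fixed space of an isometry -/
def fixSub (Q : (ι → F) → F) (g : ↥(isometryGroup F Q)) : Submodule F (ι → F) :=
  LinearMap.ker (Matrix.mulVecLin ((g : GL ι F) : Matrix ι ι F) - LinearMap.id)

theorem mem_fixSub (Q : (ι → F) → F) (g : ↥(isometryGroup F Q)) (x : ι → F) :
    x ∈ fixSub Q g ↔ act Q g x = x := by
  unfold fixSub act
  rw [LinearMap.mem_ker, LinearMap.sub_apply, sub_eq_zero]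
  rfl

end Act

section Char2
variable {ι : Type} [Fintype ι] [DecidableEq ι] {F : Type*} [Field F] [CharP F 2]

theorem vec_add_self (x : ι → F) : x + x = 0 := by
  funext i
  exact CharTwo.add_self_eq_zero (x i)

theorem vec_sub_eq_add (x y : ι → F) : x - y = x + y := by
  funext i
  exact CharTwo.sub_eq_add (x i) (y i)

theorem qrefl_char2 (Q : QuadraticForm F (ι → F)) (v x : ι → F) :
    qrefl Q v x = x + ((Q v)⁻¹ * polar Q v x) • v := by
  rw [qrefl_apply, vec_sub_eq_add]

theorem polar_self_char2 (Q : QuadraticForm F (ι → F)) (x : ι → F) : polar Q x x = 0 := by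
  rw [qf_polar_self, CharTwo.two_eq_zero, zero_mul]

/-- the Eichler transformation `x ↦ x + f(u,x) z + f(z,x) u + Q(z) f(u,x) u` as a product of two
reflections -/
theorem eich_act (Q : QuadraticForm F (ι → F)) (u z : ι → F) (hu : Q u = 0) (hz : Q z ≠ 0)
    (huz : polar Q u z = 0) (x : ι → F) :
    act ⇑Q (reflElt Q z * reflElt Q (z + Q z • u)) x =
      x + polar Q u x • z + polar Q z x • u + (Q z * polar Q u x) • u := by
  have hzu : polar Q z u = 0 := by rw [polar_comm]; exact huz
  have hb : Q (z + Q z • u) = Q z := by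
    rw [qf_add, qf_smul, hu, polar_smul_right, hzu]
    simp
  have hb0 : Q (z + Q z • u) ≠ 0 := by rw [hb]; exact hz
  rw [act_mul, act_refl Q _ hb0, act_refl Q _ hz, qrefl_char2, qrefl_char2, hb]
  have h1 : polar Q (z + Q z • u) x = polar Q z x + Q z * polar Q u x := by
    rw [polar_add_left, polar_smul_left, smul_eq_mul]
  have h3 : polar Q z (x + ((Q z)⁻¹ * polar Q (z + Q z • u) x) • (z + Q z • u)) = polar Q z x := by
    rw [polar_add_right, polar_smul_right, polar_add_right, polar_smul_right, polar_self_char2,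
      hzu]
    simp
  rw [h3, h1]
  have hcq : (Q z)⁻¹ * Q z = 1 := inv_mul_cancel₀ hz
  have h2 : (2 : F) = 0 := CharTwo.two_eq_zero
  funext i
  simp only [Pi.add_apply, Pi.smul_apply, smul_eq_mul]
  linear_combination ((Q z)⁻¹ * polar Q z x * z i) * h2 +
    (polar Q u x * z i + polar Q z x * u i + Q z * polar Q u x * u i) * hcq

end Char2

end Cfsg.Agent.Helper16
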