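import Cfsg.Agent.Helper16.CD2

set_option autoImplicit false
open Cfsg

namespace Cfsg.Agent.Helper16

open QuadraticMap Module

section CDMain
variable {ι : Type} [Fintype ι] [DecidableEq ι] {F : Type*} [Field F]

/-- the set of reflections -/
def reflSet (Q : (ι → F) → F) : Set ↥(isometryGroup F Q) :=
  {g | ∃ v : ι → F, Q v ≠ 0 ∧ ((g : GL ι F) : Matrix ι ι F) = Cfsg.reflectionMatrix Q v}

theorem reflElt_mem (Q : QuadraticForm F (ι → F)) (v : ι → F) (hv : Q v ≠ 0) :
    reflElt Q v ∈ Subgroup.closure (reflSet ⇑Q) :=
  Subgroup.subset_closure ⟨v, hv, reflElt_coe Q v hv⟩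

theorem TS_finrank_le (Q : QuadraticForm F (ι → F)) (hQ : (polarBilin Q).Nondegenerate)
    (U : Submodule F (ι → F)) (hU : TS Q U) : 2 * finrank F U ≤ Fintype.card ι := by
  have h1 := Submodule.finrank_mono hU.le_orth
  rw [finrank_orth Q hQ, Module.finrank_fintype_fun_eq_card] at h1
  omega

theorem exists_nonsing_of_big (Q : QuadraticForm F (ι → F)) (hQ : (polarBilin Q).Nondegenerate)
    (U : Submodule F (ι → F)) (hU : Fintype.card ι < 2 * finrank F U) : ∃ z ∈ U, Q z ≠ 0 := by
  by_contra hcon
  push Not at hcon
  have := TS_finrank_le Q hQ U (fun z hz => hcon z hz)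
  omega

theorem exists_z [Fintype F] (Q : QuadraticForm F (ι → F)) (hQ : (polarBilin Q).Nondegenerate)
    (h : Fintype.card F ≠ 2 ∨ Fintype.card ι ≠ 4) (u w x₀ : ι → F) (hu : Q u = 0) (hw : Q w = 0)
    (huw : polar Q u w = 0) (hux : polar Q u x₀ = 0) (hwx : polar Q w x₀ = 1) (hu0 : u ≠ 0) :
    ∃ z, polar Q u z = 0 ∧ Q z ≠ 0 ∧ Q (z + w) ≠ 0 := by
  classical
  have hwu : w ∉ Submodule.span F {u} := by
    intro hmem
    obtain ⟨c, rfl⟩ := Submodule.mem_span_singleton.1 hmem
    rw [polar_smul_left, hux, smul_zero] at hwx
    exact zero_ne_one hwx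
  have hdim2 : finrank F (Submodule.span F {u} ⊔ Submodule.span F {w} : Submodule F (ι → F)) = 2 := by
    rw [finrank_sup_span _ w hwu, finrank_span_singleton hu0]
  have hTS2 : TS Q (Submodule.span F {u} ⊔ Submodule.span F {w}) := by
    apply TS.sup (TS_span_singleton Q u hu) (TS_span_singleton Q w hw)
    intro x hx
    obtain ⟨c, rfl⟩ := Submodule.mem_span_singleton.1 hx
    rw [mem_orth_span_singleton, polar_smul_right, polar_comm, huw, smul_zero]
  have hn4 : 4 ≤ Fintype.card ι := by
    have := TS_finrank_le Q hQ _ hTS2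
    omega
  by_cases hF : Fintype.card F = 2
  · have hn : Fintype.card ι ≠ 4 := by
      rcases h with h | h
      · exact absurd hF h
      · exact h
    have hbig : Fintype.card ι < 2 * finrank F (orth Q (Submodule.span F {u} ⊔ Submodule.span F {w})) := by
      rw [finrank_orth Q hQ, hdim2, Module.finrank_fintype_fun_eq_card]
      omega
    obtain ⟨z, hz, hQz⟩ := exists_nonsing_of_big Q hQ _ hbig
    have hzu : polar Q u z = 0 :=
      hz u (Submodule.mem_sup_left (Submodule.mem_span_singleton_self u))
    have hzw : polar Q w z = 0 :=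
      hz w (Submodule.mem_sup_right (Submodule.mem_span_singleton_self w))
    refine ⟨z, hzu, hQz, ?_⟩
    rw [qf_add, hw, polar_comm, hzw, add_zero, add_zero]
    exact hQz
  · have hbig : Fintype.card ι < 2 * finrank F (orth Q (Submodule.span F {u})) := by
      rw [finrank_orth Q hQ, finrank_span_singleton hu0, Module.finrank_fintype_fun_eq_card]
      omega
    obtain ⟨z₀, hz₀, hQz₀⟩ := exists_nonsing_of_big Q hQ _ hbig
    have hz₀u : polar Q u z₀ = 0 := (mem_orth_span_singleton Q u z₀).1 hz₀
    by_cases hzw : Q (z₀ + w) ≠ 0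
    · exact ⟨z₀, hz₀u, hQz₀, hzw⟩
    · push Not at hzw
      rw [qf_add, hw, add_zero] at hzw
      have h1 : 1 < Fintype.card F := Fintype.one_lt_card
      obtain ⟨l, hl0, hl1⟩ : ∃ x : F, x ≠ 0 ∧ x ≠ 1 := by
        by_contra hcon
        push Not at hcon
        have hsub : (Finset.univ : Finset F) ⊆ {0, 1} := by
          intro x _
          by_cases hx : x = 0
          · simp [hx]
          · simp [hcon x hx]
        have h4 := Finset.card_le_card hsub
        rw [Finset.card_univ] at h4
        have h5 : ({0, 1} : Finset F).card ≤ 2 := Finset.card_le_two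
        omega
      refine ⟨l • z₀, ?_, ?_, ?_⟩
      · rw [polar_smul_right, hz₀u, smul_zero]
      · rw [qf_smul]
        exact mul_ne_zero (mul_ne_zero hl0 hl0) hQz₀
      · rw [qf_add, qf_smul, hw, add_zero, polar_smul_left, smul_eq_mul]
        have hp : polar Q z₀ w = -Q z₀ := by linear_combination hzw
        rw [hp]
        have : l * l * Q z₀ + l * -Q z₀ = l * (l - 1) * Q z₀ := by ring
        rw [this]
        exact mul_ne_zero (mul_ne_zero hl0 (sub_ne_zero.2 hl1)) hQz₀

/-- Cartan–Dieudonné in characteristic two: every isometry is a product of reflections -/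
theorem cd2_aux [Fintype F] [CharP F 2] (Q : QuadraticForm F (ι → F))
    (hQ : (polarBilin Q).Nondegenerate) (h : Fintype.card F ≠ 2 ∨ Fintype.card ι ≠ 4) :
    ∀ k : ℕ, ∀ g : ↥(isometryGroup F ⇑Q), Fintype.card ι ≤ finrank F (fixSub ⇑Q g) + k →
      g ∈ Subgroup.closure (reflSet ⇑Q) := by
  have h2 : (2 : F) = 0 := CharTwo.two_eq_zero
  intro k
  induction k with
  | zero =>
    intro g hg
    have htop : fixSub ⇑Q g = ⊤ := by
      apply Submodule.eq_top_of_finrank_eq
      rw [Module.finrank_fintype_fun_eq_card]
      have := Submodule.finrank_le (fixSub ⇑Q g)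
      rw [Module.finrank_fintype_fun_eq_card] at this
      omega
    have : g = 1 := by
      apply act_ext
      intro x
      rw [act_one]
      exact (mem_fixSub _ _ _).1 (htop ▸ Submodule.mem_top)
    rw [this]
    exact Subgroup.one_mem _
  | succ k ih =>
    intro g hg
    by_cases hgood : ∃ a, polar Q (act ⇑Q g a) a ≠ 0
    · obtain ⟨a, ha⟩ := hgood
      have hQb : Q (act ⇑Q g a + a) = polar Q (act ⇑Q g a) a := by
        rw [qf_add, act_Q ⇑Q g, CharTwo.add_self_eq_zero, zero_add]
      have hb0 : Q (act ⇑Q g a + a) ≠ 0 := by rw [hQb]; exact ha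
      have hlt : fixSub ⇑Q g < fixSub ⇑Q (reflElt Q (act ⇑Q g a + a) * g) := by
        rw [SetLike.lt_iff_le_and_exists]
        refine ⟨?_, a, ?_, ?_⟩
        · intro x hx
          rw [mem_fixSub] at hx ⊢
          rw [act_mul, hx, act_refl Q _ hb0]
          apply qrefl_of_orth
          rw [polar_add_left]
          nth_rewrite 1 [← hx]
          rw [act_polar, CharTwo.add_self_eq_zero]
        · rw [mem_fixSub, act_mul, act_refl Q _ hb0, qrefl_char2]
          have hp : polar Q (act ⇑Q g a + a) (act ⇑Q g a) = Q (act ⇑Q g a + a) := by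
            rw [polar_add_left, polar_self_char2, zero_add, hQb, polar_comm]
          rw [hp, inv_mul_cancel₀ hb0, one_smul, ← add_assoc, vec_add_self, zero_add]
        · rw [mem_fixSub]
          intro hfix
          apply ha
          rw [hfix, polar_self_char2]
      have hfr := Submodule.finrank_lt_finrank_of_lt hlt
      have hmem := ih (reflElt Q (act ⇑Q g a + a) * g) (by omega)
      have hg' : g = reflElt Q (act ⇑Q g a + a) * (reflElt Q (act ⇑Q g a + a) * g) := by
        rw [← mul_assoc, reflElt_mul_self, one_mul]
      rw [hg']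
      exact Subgroup.mul_mem _ (reflElt_mem Q _ hb0) hmem
    · push Not at hgood
      by_cases hone : ∀ x, act ⇑Q g x = x
      · have : g = 1 := by
          apply act_ext
          intro x
          rw [act_one]
          exact hone x
        rw [this]
        exact Subgroup.one_mem _
      · push Not at hone
        obtain ⟨x₀, hx₀⟩ := hone
        have N1 : ∀ a, polar Q (act ⇑Q g a + a) a = 0 := by
          intro a
          rw [polar_add_left, hgood a, polar_self_char2, add_zero]
        have N2 : ∀ a b, polar Q (act ⇑Q g a + a) b = polar Q a (act ⇑Q g b + b) := by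
          intro a b
          have h := N1 (a + b)
          rw [act_add] at h
          have e : act ⇑Q g a + act ⇑Q g b + (a + b) = (act ⇑Q g a + a) + (act ⇑Q g b + b) := by
            abel
          rw [e, polar_add_left, polar_add_right, polar_add_right, N1 a, N1 b, zero_add,
            add_zero] at h
          rw [polar_comm Q a]
          exact CharTwo.add_eq_zero.1 h
        have N3 : ∀ a b, polar Q (act ⇑Q g a + a) (act ⇑Q g b + b) = 0 := by
          intro a b
          have h1 := N2 a b
          rw [polar_add_left, polar_add_right] at h1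
          rw [polar_add_left, polar_add_right, polar_add_right, act_polar]
          linear_combination (polar Q a b + polar Q a (act ⇑Q g b)) * h2 + h1
        have N4 : ∀ a, Q (act ⇑Q g a + a) = 0 := by
          intro a
          rw [qf_add, act_Q ⇑Q g, hgood a, CharTwo.add_self_eq_zero, add_zero]
        have hu0 : act ⇑Q g x₀ + x₀ ≠ 0 := by
          intro hzero
          apply hx₀
          have h3 : act ⇑Q g x₀ + x₀ + x₀ = x₀ := by rw [hzero, zero_add]
          rwa [add_assoc, vec_add_self, add_zero] at h3
        obtain ⟨y', hy'⟩ : ∃ y', polar Q (act ⇑Q g x₀ + x₀) y' ≠ 0 := by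
          by_contra hcon
          push Not at hcon
          exact hu0 (hQ.1 _ hcon)
        have hy : polar Q (act ⇑Q g x₀ + x₀)
            ((polar Q (act ⇑Q g x₀ + x₀) y')⁻¹ • y') = 1 := by
          rw [polar_smul_right, smul_eq_mul, inv_mul_cancel₀ hy']
        generalize (polar Q (act ⇑Q g x₀ + x₀) y')⁻¹ • y' = y at hy
        have hQu := N4 x₀
        have hQw := N4 y
        have huw := N3 x₀ y
        have hux := N1 x₀
        have hwx : polar Q (act ⇑Q g y + y) x₀ = 1 := by
          rw [N2 y x₀, polar_comm]
          exact hy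
        obtain ⟨z, hz1, hz2, hz3⟩ := exists_z Q hQ h _ _ x₀ hQu hQw huw hux hwx hu0
        have hz1' : polar Q (act ⇑Q g x₀ + x₀) (z + (act ⇑Q g y + y)) = 0 := by
          rw [polar_add_right, hz1, huw, add_zero]
        have hE : ∀ x, act ⇑Q (reflElt Q (z + (act ⇑Q g y + y)) *
            reflElt Q ((z + (act ⇑Q g y + y)) + Q (z + (act ⇑Q g y + y)) • (act ⇑Q g x₀ + x₀)) *
            (reflElt Q z * reflElt Q (z + Q z • (act ⇑Q g x₀ + x₀)))) x =
            x + polar Q (act ⇑Q g x₀ + x₀) x • (act ⇑Q g y + y) +
              polar Q (act ⇑Q g y + y) x • (act ⇑Q g x₀ + x₀) := by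
          intro x
          rw [act_mul, eich_act Q _ z hQu hz2 hz1, eich_act Q _ _ hQu hz3 hz1']
          generalize act ⇑Q g x₀ + x₀ = u at *
          generalize act ⇑Q g y + y = w at *
          have e1 : polar Q u (x + polar Q u x • z + polar Q z x • u + (Q z * polar Q u x) • u) =
              polar Q u x := by
            rw [polar_add_right, polar_add_right, polar_add_right, polar_smul_right,
              polar_smul_right, polar_smul_right, hz1, polar_self_char2]
            simp
          have e2 : polar Q (z + w) (x + polar Q u x • z + polar Q z x • u +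
              (Q z * polar Q u x) • u) =
              polar Q z x + polar Q w x + polar Q u x * polar Q w z := by
            have hzwu : polar Q (z + w) u = 0 := by rw [polar_comm]; exact hz1'
            rw [polar_add_right, polar_add_right, polar_add_right, polar_smul_right,
              polar_smul_right, polar_smul_right, hzwu, polar_add_left, polar_add_left,
              polar_self_char2]
            simp
          rw [e1, e2, qf_add Q z w, hQw, polar_comm Q w z]
          funext i
          simp only [Pi.add_apply, Pi.smul_apply, smul_eq_mul]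
          linear_combination (polar Q u x * z i + polar Q z x * u i + Q z * polar Q u x * u i +
            polar Q u x * polar Q z w * u i) * h2
        have hEmem : reflElt Q (z + (act ⇑Q g y + y)) *
            reflElt Q ((z + (act ⇑Q g y + y)) + Q (z + (act ⇑Q g y + y)) • (act ⇑Q g x₀ + x₀)) *
            (reflElt Q z * reflElt Q (z + Q z • (act ⇑Q g x₀ + x₀))) ∈
              Subgroup.closure (reflSet ⇑Q) := by
          have hb1 : Q (z + Q z • (act ⇑Q g x₀ + x₀)) ≠ 0 := by
            rw [qf_add, qf_smul, hQu, polar_smul_right, polar_comm, hz1]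
            simpa using hz2
          have hb2 : Q ((z + (act ⇑Q g y + y)) +
              Q (z + (act ⇑Q g y + y)) • (act ⇑Q g x₀ + x₀)) ≠ 0 := by
            rw [qf_add, qf_smul, hQu, polar_smul_right, polar_comm, hz1']
            simpa using hz3
          exact Subgroup.mul_mem _ (Subgroup.mul_mem _ (reflElt_mem Q _ hz3) (reflElt_mem Q _ hb2))
            (Subgroup.mul_mem _ (reflElt_mem Q _ hz2) (reflElt_mem Q _ hb1))
        generalize reflElt Q (z + (act ⇑Q g y + y)) *
            reflElt Q ((z + (act ⇑Q g y + y)) + Q (z + (act ⇑Q g y + y)) • (act ⇑Q g x₀ + x₀)) *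
            (reflElt Q z * reflElt Q (z + Q z • (act ⇑Q g x₀ + x₀))) = E at hE hEmem
        have hlt : fixSub ⇑Q g < fixSub ⇑Q (E * g) := by
          rw [SetLike.lt_iff_le_and_exists]
          refine ⟨?_, x₀, ?_, ?_⟩
          · intro x hx
            rw [mem_fixSub] at hx ⊢
            rw [act_mul, hx, hE, N2 x₀ x, N2 y x, hx, vec_add_self]
            simp [polar]
          · rw [mem_fixSub, act_mul, hE]
            have hgx : act ⇑Q g x₀ = (act ⇑Q g x₀ + x₀) + x₀ := by
              rw [add_assoc, vec_add_self, add_zero]
            have e1 : polar Q (act ⇑Q g x₀ + x₀) (act ⇑Q g x₀) = 0 := by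
              nth_rewrite 2 [hgx]
              rw [polar_add_right, polar_self_char2, hux, add_zero]
            have e2 : polar Q (act ⇑Q g y + y) (act ⇑Q g x₀) = 1 := by
              nth_rewrite 1 [hgx]
              rw [polar_add_right, polar_comm, huw, hwx, zero_add]
            rw [e1, e2, zero_smul, add_zero, one_smul, ← add_assoc, vec_add_self, zero_add]
          · rw [mem_fixSub]
            exact hx₀
        have hfr := Submodule.finrank_lt_finrank_of_lt hlt
        have hmem := ih (E * g) (by omega)
        have hg' : g = E⁻¹ * (E * g) := by rw [inv_mul_cancel_left]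
        rw [hg']
        exact Subgroup.mul_mem _ (Subgroup.inv_mem _ hEmem) hmem

theorem cd2 [Fintype F] [CharP F 2] (Q : QuadraticForm F (ι → F))
    (hQ : (polarBilin Q).Nondegenerate) (h : Fintype.card F ≠ 2 ∨ Fintype.card ι ≠ 4) :
    Subgroup.closure (reflSet ⇑Q) = ⊤ := by
  rw [eq_top_iff]
  intro g _
  exact cd2_aux Q hQ h (Fintype.card ι) g (Nat.le_add_left _ _)

end CDMain

end Cfsg.Agent.Helper16
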