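import Cfsg.Agent.Helper16.CD2Main
import Cfsg.Agent.S0750

set_option autoImplicit false
open Cfsg

namespace Cfsg.Agent.Helper16

open QuadraticMap Module
open scoped commutatorElement

section WittMat
variable {ι : Type} [Fintype ι] [DecidableEq ι] {F : Type*} [Field F]

/-- a `Q`-preserving linear automorphism as an element of the isometry group -/
theorem exists_isom_of_linearEquiv (Q : (ι → F) → F) (g : (ι → F) ≃ₗ[F] (ι → F))
    (hg : ∀ v, Q (g v) = Q v) : ∃ h : ↥(isometryGroup F Q), ∀ x, act Q h x = g x := by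
  have h1 : LinearMap.toMatrix' (g : (ι → F) →ₗ[F] (ι → F)) *
      LinearMap.toMatrix' (g.symm : (ι → F) →ₗ[F] (ι → F)) = 1 := by
    rw [← LinearMap.toMatrix'_comp]
    simp
  have h3 : LinearMap.toMatrix' (g.symm : (ι → F) →ₗ[F] (ι → F)) *
      LinearMap.toMatrix' (g : (ι → F) →ₗ[F] (ι → F)) = 1 := by
    rw [← LinearMap.toMatrix'_comp]
    simp
  have hmul : ∀ x, (LinearMap.toMatrix' (g : (ι → F) →ₗ[F] (ι → F))).mulVec x = g x := by
    intro x
    rw [← Matrix.toLin'_apply, Matrix.toLin'_toMatrix']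
    rfl
  exact ⟨⟨⟨LinearMap.toMatrix' (g : (ι → F) →ₗ[F] (ι → F)),
    LinearMap.toMatrix' (g.symm : (ι → F) →ₗ[F] (ι → F)), h1, h3⟩,
    (mem_isometryGroup_iff _ _).2 fun u => by
      show Q ((LinearMap.toMatrix' (g : (ι → F) →ₗ[F] (ι → F))).mulVec u) = Q u
      rw [hmul]
      exact hg u⟩, hmul⟩

/-- Witt's lemma in matrix form -/
theorem witt_subspace [Finite F] (Q : QuadraticForm F (ι → F)) (hQ : (polarBilin Q).Nondegenerate)
    (X Y : Submodule F (ι → F)) (φ : X ≃ₗ[F] Y) (hφ : ∀ x : X, Q (φ x : ι → F) = Q (x : ι → F)) :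
    ∃ h : ↥(isometryGroup F ⇑Q), ∀ x : X, act ⇑Q h (x : ι → F) = (φ x : ι → F) := by
  obtain ⟨g, hg, hgx⟩ := Cfsg.Agent.S0750.result Q hQ X Y φ hφ
  obtain ⟨h, hh⟩ := exists_isom_of_linearEquiv ⇑Q g hg
  exact ⟨h, fun x => by rw [hh, hgx]⟩

theorem witt_vector [Finite F] (Q : QuadraticForm F (ι → F)) (hQ : (polarBilin Q).Nondegenerate)
    (a b : ι → F) (ha : a ≠ 0) (hb : b ≠ 0) (hab : Q a = Q b) :
    ∃ h : ↥(isometryGroup F ⇑Q), act ⇑Q h a = b := by
  obtain ⟨h, hh⟩ := witt_subspace Q hQ (Submodule.span F {a}) (Submodule.span F {b})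
    ((LinearEquiv.toSpanNonzeroSingleton F (ι → F) a ha).symm.trans
      (LinearEquiv.toSpanNonzeroSingleton F (ι → F) b hb)) (by
    intro x
    have hx : ((LinearEquiv.toSpanNonzeroSingleton F (ι → F) a ha).symm x) • a = (x : ι → F) :=
      LinearEquiv.toSpanNonzeroSingleton_symm_apply_smul F (ι → F) a ha x
    rw [LinearEquiv.trans_apply, LinearEquiv.toSpanNonzeroSingleton_apply]
    show Q (((LinearEquiv.toSpanNonzeroSingleton F (ι → F) a ha).symm x) • b) = Q (x : ι → F)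
    rw [← hx, qf_smul, qf_smul, hab])
  refine ⟨h, ?_⟩
  have h1 := hh ⟨a, Submodule.mem_span_singleton_self a⟩
  have h3 : (LinearEquiv.toSpanNonzeroSingleton F (ι → F) a ha).symm
      ⟨a, Submodule.mem_span_singleton_self a⟩ = 1 := by
    rw [LinearEquiv.symm_apply_eq, LinearEquiv.toSpanNonzeroSingleton_one]
  rw [LinearEquiv.trans_apply, h3, LinearEquiv.toSpanNonzeroSingleton_apply] at h1
  rw [h1]
  exact one_smul F b

end WittMat

section Even
variable {ι : Type} [Fintype ι] [DecidableEq ι] {F : Type*} [Field F]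

/-- products of two reflections -/
def pairSet (Q : (ι → F) → F) : Set ↥(isometryGroup F Q) :=
  {g | ∃ u v : ι → F, Q u ≠ 0 ∧ Q v ≠ 0 ∧
    ((g : GL ι F) : Matrix ι ι F) = Cfsg.reflectionMatrix Q u * Cfsg.reflectionMatrix Q v}

theorem pair_mem (Q : QuadraticForm F (ι → F)) (u v : ι → F) (hu : Q u ≠ 0) (hv : Q v ≠ 0) :
    reflElt Q u * reflElt Q v ∈ Subgroup.closure (pairSet ⇑Q) :=
  Subgroup.subset_closure ⟨u, v, hu, hv, by
    rw [Subgroup.coe_mul, Units.val_mul, reflElt_coe Q u hu, reflElt_coe Q v hv]⟩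

theorem pairSet_eq (Q : QuadraticForm F (ι → F)) (g : ↥(isometryGroup F ⇑Q))
    (hg : g ∈ pairSet ⇑Q) :
    ∃ u v : ι → F, Q u ≠ 0 ∧ Q v ≠ 0 ∧ g = reflElt Q u * reflElt Q v := by
  obtain ⟨u, v, hu, hv, h⟩ := hg
  exact ⟨u, v, hu, hv, isom_ext _ _ _ (by
    rw [h, Subgroup.coe_mul, Units.val_mul, reflElt_coe Q u hu, reflElt_coe Q v hv])⟩

theorem even_conj (Q : QuadraticForm F (ι → F)) (h k : ↥(isometryGroup F ⇑Q))
    (hk : k ∈ Subgroup.closure (pairSet ⇑Q)) :
    h * k * h⁻¹ ∈ Subgroup.closure (pairSet ⇑Q) := by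
  induction hk using Subgroup.closure_induction with
  | mem x hx =>
    obtain ⟨u, v, hu, hv, rfl⟩ := pairSet_eq Q x hx
    have e : h * (reflElt Q u * reflElt Q v) * h⁻¹ =
        (h * reflElt Q u * h⁻¹) * (h * reflElt Q v * h⁻¹) := by group
    rw [e, reflElt_conj Q h u hu, reflElt_conj Q h v hv]
    exact pair_mem Q _ _ (by rw [(mem_isometryGroup_iff _ _).1 h.2 u]; exact hu)
      (by rw [(mem_isometryGroup_iff _ _).1 h.2 v]; exact hv)
  | one =>
    rw [mul_one, mul_inv_cancel]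
    exact Subgroup.one_mem _
  | mul x y _ _ hx hy =>
    have e : h * (x * y) * h⁻¹ = (h * x * h⁻¹) * (h * y * h⁻¹) := by group
    rw [e]
    exact Subgroup.mul_mem _ hx hy
  | inv x _ hx =>
    have e : h * x⁻¹ * h⁻¹ = (h * x * h⁻¹)⁻¹ := by group
    rw [e]
    exact Subgroup.inv_mem _ hx

theorem even_dichotomy (Q : QuadraticForm F (ι → F)) (a₀ : ι → F) (ha₀ : Q a₀ ≠ 0)
    (g : ↥(isometryGroup F ⇑Q)) (hg : g ∈ Subgroup.closure (reflSet ⇑Q)) :
    g ∈ Subgroup.closure (pairSet ⇑Q) ∨ reflElt Q a₀ * g ∈ Subgroup.closure (pairSet ⇑Q) := by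
  have hr : (reflElt Q a₀)⁻¹ = reflElt Q a₀ := reflElt_inv Q a₀
  have hrr : reflElt Q a₀ * reflElt Q a₀ = 1 := reflElt_mul_self Q a₀
  induction hg using Subgroup.closure_induction with
  | mem x hx =>
    obtain ⟨v, hv, hmat⟩ := hx
    have : x = reflElt Q v := isom_ext _ _ _ (by rw [hmat, reflElt_coe Q v hv])
    right
    rw [this]
    exact pair_mem Q a₀ v ha₀ hv
  | one =>
    left
    exact Subgroup.one_mem _
  | mul x y _ _ hx hy =>
    rcases hx with hx | hx <;> rcases hy with hy | hy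
    · left
      exact Subgroup.mul_mem _ hx hy
    · right
      have e : reflElt Q a₀ * (x * y) = (reflElt Q a₀ * x * (reflElt Q a₀)⁻¹) * (reflElt Q a₀ * y) := by
        group
      rw [e]
      exact Subgroup.mul_mem _ (even_conj Q _ x hx) hy
    · right
      rw [← mul_assoc]
      exact Subgroup.mul_mem _ hx hy
    · left
      have e : x * y = (reflElt Q a₀ * (reflElt Q a₀ * x) * (reflElt Q a₀)⁻¹) * (reflElt Q a₀ * y) := by
        rw [hr]
        simp only [mul_assoc]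
        rw [← mul_assoc (reflElt Q a₀) (reflElt Q a₀), hrr, one_mul,
          ← mul_assoc (reflElt Q a₀) (reflElt Q a₀), hrr, one_mul]
      rw [e]
      exact Subgroup.mul_mem _ (even_conj Q _ _ hx) hy
  | inv x _ hx =>
    rcases hx with hx | hx
    · left
      exact Subgroup.inv_mem _ hx
    · right
      have e : reflElt Q a₀ * x⁻¹ = reflElt Q a₀ * (reflElt Q a₀ * x)⁻¹ * (reflElt Q a₀)⁻¹ := by
        rw [mul_inv_rev, hr, mul_assoc, mul_assoc, hrr, mul_one]
      rw [e]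
      exact even_conj Q _ _ (Subgroup.inv_mem _ hx)

theorem Omega_le_even (Q : QuadraticForm F (ι → F)) (a₀ : ι → F) (ha₀ : Q a₀ ≠ 0)
    (htop : Subgroup.closure (reflSet ⇑Q) = ⊤) :
    Omega F ⇑Q ≤ Subgroup.closure (pairSet ⇑Q) := by
  haveI : (Subgroup.closure (pairSet ⇑Q)).Normal := ⟨fun k hk h => even_conj Q h k hk⟩
  have hcls : ∀ x : ↥(isometryGroup F ⇑Q),
      (QuotientGroup.mk' (Subgroup.closure (pairSet ⇑Q))) x = 1 ∨
      (QuotientGroup.mk' (Subgroup.closure (pairSet ⇑Q))) x =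
        (QuotientGroup.mk' (Subgroup.closure (pairSet ⇑Q))) (reflElt Q a₀) := by
    intro x
    rcases even_dichotomy Q a₀ ha₀ x (htop ▸ Subgroup.mem_top x) with hx | hx
    · left
      exact (QuotientGroup.eq_one_iff x).2 hx
    · right
      have h1 := (QuotientGroup.eq_one_iff (N := Subgroup.closure (pairSet ⇑Q)) _).2 hx
      have h3 : (QuotientGroup.mk' (Subgroup.closure (pairSet ⇑Q))) (reflElt Q a₀) *
          (QuotientGroup.mk' (Subgroup.closure (pairSet ⇑Q))) x = 1 := by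
        rw [← map_mul]
        exact h1
      have h4 : (QuotientGroup.mk' (Subgroup.closure (pairSet ⇑Q))) (reflElt Q a₀) *
          (QuotientGroup.mk' (Subgroup.closure (pairSet ⇑Q))) (reflElt Q a₀) = 1 := by
        rw [← map_mul, reflElt_mul_self, map_one]
      exact mul_left_cancel (h3.trans h4.symm)
  show commutator _ ≤ _
  rw [commutator_eq_closure, Subgroup.closure_le]
  rintro _ ⟨x, y, rfl⟩
  rw [SetLike.mem_coe, ← QuotientGroup.eq_one_iff]
  show (QuotientGroup.mk' (Subgroup.closure (pairSet ⇑Q))) ⁅x, y⁆ = 1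
  rw [map_commutatorElement]
  rcases hcls x with hx | hx <;> rcases hcls y with hy | hy
  · rw [hx, commutatorElement_one_left]
  · rw [hx, commutatorElement_one_left]
  · rw [hy, commutatorElement_one_right]
  · rw [hx, hy, commutatorElement_self]

theorem pair_mem_Omega [Fintype F] [CharP F 2] (Q : QuadraticForm F (ι → F))
    (hQ : (polarBilin Q).Nondegenerate) (a b : ι → F) (ha : Q a ≠ 0) (hb : Q b ≠ 0) :
    reflElt Q a * reflElt Q b ∈ Omega F ⇑Q := by
  obtain ⟨c, hc⟩ := FiniteField.isSquare_of_char_two (ringChar.eq F 2) (Q a / Q b)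
  have hc0 : c ≠ 0 := by
    rintro rfl
    rw [mul_zero] at hc
    exact (div_ne_zero ha hb) hc
  have hb' : Q (c • b) = Q a := by
    rw [qf_smul, ← hc]
    field_simp
  have ha0 : a ≠ 0 := by
    rintro rfl
    exact ha (QuadraticMap.map_zero Q)
  have hcb0 : c • b ≠ 0 := by
    intro h0
    rw [h0, QuadraticMap.map_zero] at hb'
    exact ha hb'.symm
  obtain ⟨h, hh⟩ := witt_vector Q hQ a (c • b) ha0 hcb0 hb'.symm
  have h1 : reflElt Q b = h * reflElt Q a * h⁻¹ := by
    rw [reflElt_conj Q h a ha]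
    show _ = reflElt Q (act ⇑Q h a)
    rw [hh, reflElt_smul Q b c hc0 hb]
  have e : reflElt Q a * reflElt Q b = ⁅reflElt Q a, h⁆ := by
    rw [commutatorElement_def, reflElt_inv, h1]
    group
  rw [e]
  exact Subgroup.commutator_mem_commutator (Subgroup.mem_top _) (Subgroup.mem_top _)

theorem even_le_Omega [Fintype F] [CharP F 2] (Q : QuadraticForm F (ι → F))
    (hQ : (polarBilin Q).Nondegenerate) : Subgroup.closure (pairSet ⇑Q) ≤ Omega F ⇑Q := by
  rw [Subgroup.closure_le]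
  intro g hg
  obtain ⟨u, v, hu, hv, rfl⟩ := pairSet_eq Q g hg
  exact pair_mem_Omega Q hQ u v hu hv

/-- in characteristic two, an isometry or its product with a given reflection lies in `Ω` -/
theorem Omega_dichotomy [Fintype F] [CharP F 2] (Q : QuadraticForm F (ι → F))
    (hQ : (polarBilin Q).Nondegenerate) (h : Fintype.card F ≠ 2 ∨ Fintype.card ι ≠ 4)
    (a₀ : ι → F) (ha₀ : Q a₀ ≠ 0) (g : ↥(isometryGroup F ⇑Q)) :
    g ∈ Omega F ⇑Q ∨ reflElt Q a₀ * g ∈ Omega F ⇑Q := by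
  rcases even_dichotomy Q a₀ ha₀ g (cd2 Q hQ h ▸ Subgroup.mem_top g) with hg | hg
  · exact Or.inl (even_le_Omega Q hQ hg)
  · exact Or.inr (even_le_Omega Q hQ hg)

theorem exists_nonsing [Fintype F] (Q : QuadraticForm F (ι → F))
    (hQ : (polarBilin Q).Nondegenerate) (hn : 1 ≤ Fintype.card ι) : ∃ a : ι → F, Q a ≠ 0 := by
  obtain ⟨z, -, hz⟩ := exists_nonsing_of_big Q hQ ⊤ (by
    rw [finrank_top, Module.finrank_fintype_fun_eq_card]
    omega)
  exact ⟨z, hz⟩

end Even

end Cfsg.Agent.Helper16
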