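import Cfsg.Agent.Helper16.Char2Omega
import Cfsg.Agent.Helper16.IndexTwo

set_option autoImplicit false
open Cfsg

namespace Cfsg.Agent.Helper16

open QuadraticMap Module

section Dickson
variable {ι : Type} [Fintype ι] [DecidableEq ι] {F : Type*} [Field F] [CharP F 2]

/-- `g x + x` is orthogonal to every fixed vector -/
theorem polar_moved_fix (Q : QuadraticForm F (ι → F)) (g : ↥(isometryGroup F ⇑Q)) (x y : ι → F)
    (hy : act ⇑Q g y = y) : polar Q (act ⇑Q g x + x) y = 0 := by
  rw [polar_add_left]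
  have h := act_polar ⇑Q g x y
  rw [hy] at h
  rw [h]
  exact CharTwo.add_self_eq_zero _

/-- the moved space `{g x + x}` -/
def movSub (Q : (ι → F) → F) (g : ↥(isometryGroup F Q)) : Submodule F (ι → F) :=
  LinearMap.range (Matrix.mulVecLin ((g : GL ι F) : Matrix ι ι F) - LinearMap.id)

theorem mem_movSub (Q : (ι → F) → F) (g : ↥(isometryGroup F Q)) (a : ι → F) :
    a ∈ movSub Q g ↔ ∃ x, act Q g x + x = a := by
  unfold movSub act
  rw [LinearMap.mem_range]
  constructor
  · rintro ⟨x, hx⟩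
    refine ⟨x, ?_⟩
    rw [← hx, LinearMap.sub_apply, vec_sub_eq_add]
    rfl
  · rintro ⟨x, hx⟩
    refine ⟨x, ?_⟩
    rw [← hx, LinearMap.sub_apply, vec_sub_eq_add]
    rfl

omit [CharP F 2] in
theorem finrank_mov_add_fix (Q : (ι → F) → F) (g : ↥(isometryGroup F Q)) :
    finrank F (movSub Q g) + finrank F (fixSub Q g) = Fintype.card ι := by
  have := LinearMap.finrank_range_add_finrank_ker
    (Matrix.mulVecLin ((g : GL ι F) : Matrix ι ι F) - LinearMap.id)
  rw [Module.finrank_fintype_fun_eq_card] at this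
  exact this

theorem orth_fix (Q : QuadraticForm F (ι → F)) (hQ : (polarBilin Q).Nondegenerate)
    (g : ↥(isometryGroup F ⇑Q)) : orth Q (fixSub ⇑Q g) = movSub ⇑Q g := by
  symm
  apply Submodule.eq_of_le_of_finrank_eq
  · intro a ha
    obtain ⟨x, rfl⟩ := (mem_movSub _ _ _).1 ha
    rw [mem_orth]
    intro y hy
    rw [polar_comm]
    exact polar_moved_fix Q g x y ((mem_fixSub _ _ _).1 hy)
  · rw [finrank_orth Q hQ, Module.finrank_fintype_fun_eq_card]
    have := finrank_mov_add_fix ⇑Q g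
    omega

theorem char2_eq_add_of_add_eq {u v w : ι → F} (h : u + v = w) : v = u + w := by
  rw [← h, ← add_assoc, vec_add_self, zero_add]

theorem finrank_fix_refl_mul_of_not_mem (Q : QuadraticForm F (ι → F))
    (hQ : (polarBilin Q).Nondegenerate) (g : ↥(isometryGroup F ⇑Q)) (a : ι → F) (ha : Q a ≠ 0)
    (hmov : a ∉ movSub ⇑Q g) :
    finrank F (fixSub ⇑Q (reflElt Q a * g)) + 1 = finrank F (fixSub ⇑Q g) := by
  obtain ⟨y, hy, hay⟩ : ∃ y ∈ fixSub ⇑Q g, polar Q a y ≠ 0 := by
    by_contra hcon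
    push Not at hcon
    apply hmov
    rw [← orth_fix Q hQ g, mem_orth]
    intro u hu
    rw [polar_comm]
    exact hcon u hu
  have hchar : ∀ x, x ∈ fixSub ⇑Q (reflElt Q a * g) ↔ (x ∈ fixSub ⇑Q g ∧ polar Q a x = 0) := by
    intro x
    rw [mem_fixSub, mem_fixSub, act_mul, act_refl Q a ha]
    constructor
    · intro hx
      rw [qrefl_char2] at hx
      have hx2 := char2_eq_add_of_add_eq hx
      by_cases hc : (Q a)⁻¹ * polar Q a (act ⇑Q g x) = 0
      · rw [hc, zero_smul, add_zero] at hx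
        refine ⟨hx, ?_⟩
        rw [hx] at hc
        rcases mul_eq_zero.1 hc with h0 | h0
        · exact absurd h0 (inv_ne_zero ha)
        · exact h0
      · exfalso
        apply hmov
        rw [mem_movSub]
        refine ⟨((Q a)⁻¹ * polar Q a (act ⇑Q g x))⁻¹ • x, ?_⟩
        rw [act_smul, ← smul_add, ← hx2, smul_smul, inv_mul_cancel₀ hc, one_smul]
    · rintro ⟨hx, hpx⟩
      rw [hx, qrefl_of_orth Q a x hpx]
  have hy' : y ∉ fixSub ⇑Q (reflElt Q a * g) := fun h => hay ((hchar y).1 h).2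
  have hE : fixSub ⇑Q g = fixSub ⇑Q (reflElt Q a * g) ⊔ Submodule.span F {y} := by
    apply le_antisymm
    · intro z hz
      rw [Submodule.mem_sup]
      refine ⟨z + (polar Q a z / polar Q a y) • y, ?_, (polar Q a z / polar Q a y) • y,
        Submodule.smul_mem _ _ (Submodule.mem_span_singleton_self y), ?_⟩
      · rw [hchar]
        refine ⟨Submodule.add_mem _ hz (Submodule.smul_mem _ _ hy), ?_⟩
        rw [polar_add_right, polar_smul_right, smul_eq_mul, div_mul_cancel₀ _ hay]
        exact CharTwo.add_self_eq_zero _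
      · rw [add_assoc, vec_add_self, add_zero]
    · apply sup_le
      · intro z hz
        exact ((hchar z).1 hz).1
      · rw [Submodule.span_singleton_le_iff_mem]
        exact hy
  rw [hE, finrank_sup_span _ y hy']

theorem finrank_fix_refl_mul_of_mem (Q : QuadraticForm F (ι → F))
    (g : ↥(isometryGroup F ⇑Q)) (a : ι → F) (ha : Q a ≠ 0) (hmov : a ∈ movSub ⇑Q g) :
    finrank F (fixSub ⇑Q (reflElt Q a * g)) = finrank F (fixSub ⇑Q g) + 1 := by
  obtain ⟨x, hx⟩ := (mem_movSub _ _ _).1 hmov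
  have hgx : act ⇑Q g x = a + x := by
    have := char2_eq_add_of_add_eq hx
    rw [add_comm] at hx
    have h2 := char2_eq_add_of_add_eq hx
    rw [h2, add_comm]
  have hxfix : x ∉ fixSub ⇑Q g := by
    intro h
    rw [mem_fixSub] at h
    rw [h, vec_add_self] at hx
    rw [← hx] at ha
    exact ha (map_zero Q)
  have hpax : polar Q a x = Q a := by
    have h1 : Q a = polar Q (act ⇑Q g x) x := by
      rw [← hx, qf_add, act_Q ⇑Q g x, CharTwo.add_self_eq_zero, zero_add]
    rw [h1, ← hx, polar_add_left, polar_self_char2, add_zero]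
  have hfixle : ∀ z, act ⇑Q g z = z → act ⇑Q (reflElt Q a * g) z = z := by
    intro z hz
    rw [act_mul, act_refl Q a ha, hz]
    apply qrefl_of_orth
    rw [← hx]
    exact polar_moved_fix Q g x z hz
  have hxfix' : act ⇑Q (reflElt Q a * g) x = x := by
    rw [act_mul, act_refl Q a ha, hgx, map_add, qrefl_self Q a ha, qrefl_char2, hpax,
      inv_mul_cancel₀ ha, one_smul]
    funext i
    simp only [Pi.add_apply, Pi.neg_apply]
    ring
  have hE : fixSub ⇑Q (reflElt Q a * g) = fixSub ⇑Q g ⊔ Submodule.span F {x} := by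
    apply le_antisymm
    · intro y hy
      rw [mem_fixSub, act_mul, act_refl Q a ha, qrefl_char2] at hy
      rw [Submodule.mem_sup]
      refine ⟨y + ((Q a)⁻¹ * polar Q a (act ⇑Q g y)) • x, ?_,
        ((Q a)⁻¹ * polar Q a (act ⇑Q g y)) • x,
        Submodule.smul_mem _ _ (Submodule.mem_span_singleton_self x), ?_⟩
      · rw [mem_fixSub, act_add, act_smul, hgx, smul_add, ← add_assoc, hy]
      · rw [add_assoc, vec_add_self, add_zero]
    · apply sup_le
      · intro z hz
        rw [mem_fixSub] at hz ⊢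
        exact hfixle z hz
      · rw [Submodule.span_singleton_le_iff_mem, mem_fixSub]
        exact hxfix'
  rw [hE, finrank_sup_span _ x hxfix]

/-- the Dickson invariant: parity of the rank of `g - 1` -/
noncomputable def dicksonFun (Q : (ι → F) → F) (g : ↥(isometryGroup F Q)) :
    Multiplicative (ZMod 2) :=
  Multiplicative.ofAdd ((Fintype.card ι + finrank F (fixSub Q g) : ℕ) : ZMod 2)

omit [CharP F 2] in
theorem dicksonFun_one (Q : (ι → F) → F) : dicksonFun Q 1 = 1 := by
  have h : fixSub Q 1 = ⊤ := by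
    rw [eq_top_iff]
    intro x _
    rw [mem_fixSub, act_one]
  unfold dicksonFun
  rw [h, finrank_top, Module.finrank_fintype_fun_eq_card]
  have : ((Fintype.card ι + Fintype.card ι : ℕ) : ZMod 2) = 0 := by
    rw [← two_mul, Nat.cast_mul]
    have : ((2 : ℕ) : ZMod 2) = 0 := by decide
    rw [this, zero_mul]
  rw [this]
  rfl

theorem dicksonFun_refl_mul (Q : QuadraticForm F (ι → F)) (hQ : (polarBilin Q).Nondegenerate)
    (g : ↥(isometryGroup F ⇑Q)) (a : ι → F) (ha : Q a ≠ 0) :
    dicksonFun ⇑Q (reflElt Q a * g) = Multiplicative.ofAdd 1 * dicksonFun ⇑Q g := by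
  unfold dicksonFun
  rw [← ofAdd_add]
  congr 1
  have h11 : (1 : ZMod 2) + 1 = 0 := by decide
  by_cases hmov : a ∈ movSub ⇑Q g
  · rw [finrank_fix_refl_mul_of_mem Q g a ha hmov]
    push_cast
    ring
  · rw [← finrank_fix_refl_mul_of_not_mem Q hQ g a ha hmov]
    push_cast
    linear_combination (-1 : ZMod 2) * h11

theorem dicksonFun_mul [Fintype F] (Q : QuadraticForm F (ι → F))
    (hQ : (polarBilin Q).Nondegenerate) (h : Fintype.card F ≠ 2 ∨ Fintype.card ι ≠ 4)
    (g k : ↥(isometryGroup F ⇑Q)) :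
    dicksonFun ⇑Q (g * k) = dicksonFun ⇑Q g * dicksonFun ⇑Q k := by
  have hg : g ∈ Subgroup.closure (reflSet ⇑Q) := by
    rw [cd2 Q hQ h]
    exact Subgroup.mem_top g
  induction hg using Subgroup.closure_induction_left with
  | one => rw [one_mul, dicksonFun_one, one_mul]
  | mul_left x hx y _ ih =>
    obtain ⟨v, hv, hmat⟩ := hx
    have : x = reflElt Q v := isom_ext _ _ _ (by rw [hmat, reflElt_coe Q v hv])
    rw [this, mul_assoc, dicksonFun_refl_mul Q hQ _ v hv, ih, dicksonFun_refl_mul Q hQ _ v hv,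
      mul_assoc]
  | inv_mul_cancel x hx y _ ih =>
    obtain ⟨v, hv, hmat⟩ := hx
    have : x = reflElt Q v := isom_ext _ _ _ (by rw [hmat, reflElt_coe Q v hv])
    rw [this, reflElt_inv, mul_assoc, dicksonFun_refl_mul Q hQ _ v hv, ih,
      dicksonFun_refl_mul Q hQ _ v hv, mul_assoc]

/-- the Dickson invariant as a homomorphism -/
noncomputable def dicksonHom [Fintype F] (Q : QuadraticForm F (ι → F))
    (hQ : (polarBilin Q).Nondegenerate) (h : Fintype.card F ≠ 2 ∨ Fintype.card ι ≠ 4) :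
    ↥(isometryGroup F ⇑Q) →* Multiplicative (ZMod 2) :=
  MonoidHom.mk' (dicksonFun ⇑Q) (dicksonFun_mul Q hQ h)

theorem dicksonHom_refl [Fintype F] (Q : QuadraticForm F (ι → F))
    (hQ : (polarBilin Q).Nondegenerate) (h : Fintype.card F ≠ 2 ∨ Fintype.card ι ≠ 4)
    (a : ι → F) (ha : Q a ≠ 0) :
    dicksonHom Q hQ h (reflElt Q a) = Multiplicative.ofAdd 1 := by
  show dicksonFun ⇑Q (reflElt Q a) = _
  have := dicksonFun_refl_mul Q hQ 1 a ha
  rw [mul_one, dicksonFun_one, mul_one] at this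
  exact this

theorem mem_Omega_iff_dickson [Fintype F] (Q : QuadraticForm F (ι → F))
    (hQ : (polarBilin Q).Nondegenerate) (h : Fintype.card F ≠ 2 ∨ Fintype.card ι ≠ 4)
    (hn : 1 ≤ Fintype.card ι) (g : ↥(isometryGroup F ⇑Q)) :
    g ∈ Omega F ⇑Q ↔ dicksonHom Q hQ h g = 1 := by
  constructor
  · intro hg
    exact Abelianization.commutator_subset_ker _ hg
  · intro hg
    obtain ⟨a₀, ha₀⟩ := exists_nonsing Q hQ hn
    rcases Omega_dichotomy Q hQ h a₀ ha₀ g with h1 | h1
    · exact h1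
    · have h3 : dicksonHom Q hQ h (reflElt Q a₀ * g) = 1 :=
        Abelianization.commutator_subset_ker _ h1
      rw [map_mul, hg, mul_one, dicksonHom_refl Q hQ h a₀ ha₀] at h3
      exact absurd h3 (by decide)

theorem dickson_eq_one_iff_rank [Fintype F] (Q : QuadraticForm F (ι → F))
    (hQ : (polarBilin Q).Nondegenerate) (h : Fintype.card F ≠ 2 ∨ Fintype.card ι ≠ 4)
    (g : ↥(isometryGroup F ⇑Q)) :
    dicksonHom Q hQ h g = 1 ↔ Even (((g : GL ι F) : Matrix ι ι F) - 1).rank := by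
  have hr : (((g : GL ι F) : Matrix ι ι F) - 1).rank = finrank F (movSub ⇑Q g) := by
    unfold Matrix.rank movSub
    have e : Matrix.mulVecLin (((g : GL ι F) : Matrix ι ι F) - 1) =
        Matrix.mulVecLin ((g : GL ι F) : Matrix ι ι F) - LinearMap.id := by
      apply LinearMap.ext
      intro x
      rw [LinearMap.sub_apply, Matrix.mulVecLin_apply, Matrix.sub_mulVec, Matrix.one_mulVec]
      rfl
    rw [e]
  have hsum := finrank_mov_add_fix ⇑Q g
  show Multiplicative.ofAdd ((Fintype.card ι + finrank F (fixSub ⇑Q g) : ℕ) : ZMod 2) = 1 ↔ _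
  rw [hr, ← ofAdd_zero, Multiplicative.ofAdd.injective.eq_iff, ZMod.natCast_eq_zero_iff_even,
    ← hsum]
  constructor
  · intro he
    have : Even (finrank F (movSub ⇑Q g) + 2 * finrank F (fixSub ⇑Q g)) := by
      have e : finrank F (movSub ⇑Q g) + 2 * finrank F (fixSub ⇑Q g) =
        finrank F (movSub ⇑Q g) + finrank F (fixSub ⇑Q g) + finrank F (fixSub ⇑Q g) := by ring
      rw [e]
      exact he
    rcases this with ⟨r, hr'⟩
    exact ⟨r - finrank F (fixSub ⇑Q g), by omega⟩
  · rintro ⟨r, hr'⟩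
    exact ⟨r + finrank F (fixSub ⇑Q g), by omega⟩

theorem mem_Omega_iff_rank [Fintype F] (Q : QuadraticForm F (ι → F))
    (hQ : (polarBilin Q).Nondegenerate) (h : Fintype.card F ≠ 2 ∨ Fintype.card ι ≠ 4)
    (hn : 1 ≤ Fintype.card ι) (g : ↥(isometryGroup F ⇑Q)) :
    g ∈ Omega F ⇑Q ↔ Even (((g : GL ι F) : Matrix ι ι F) - 1).rank := by
  rw [mem_Omega_iff_dickson Q hQ h hn, dickson_eq_one_iff_rank]

theorem Omega_index_char2 [Fintype F] (Q : QuadraticForm F (ι → F))
    (hQ : (polarBilin Q).Nondegenerate) (h : Fintype.card F ≠ 2 ∨ Fintype.card ι ≠ 4)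
    (hn : 1 ≤ Fintype.card ι) : (Omega F ⇑Q).index = 2 := by
  obtain ⟨a₀, ha₀⟩ := exists_nonsing Q hQ hn
  have hker : Omega F ⇑Q = (dicksonHom Q hQ h).ker := by
    ext g
    rw [mem_Omega_iff_dickson Q hQ h hn, MonoidHom.mem_ker]
  rw [hker]
  exact index_ker_zmod2 _ (reflElt Q a₀) (by
    rw [dicksonHom_refl Q hQ h a₀ ha₀]
    decide)

end Dickson

end Cfsg.Agent.Helper16
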