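import Cfsg.Agent.Helper16.Char2Omega
import Cfsg.Agent.Helper16.IndexTwo

set_option autoImplicit false
open Cfsg

namespace Cfsg.Agent.Helper16

open QuadraticMap Module
open scoped commutatorElement

section OmegaTrans
variable {ι : Type} [Fintype ι] [DecidableEq ι] {F : Type*} [Field F]

theorem mapG_eq_of_act (Q : (ι → F) → F) (h : ↥(isometryGroup F Q)) (U W : Submodule F (ι → F))
    (hfin : finrank F U = finrank F W) (hmap : ∀ x ∈ U, act Q h x ∈ W) :
    mapG (h : GL ι F) U = W := by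
  apply Submodule.eq_of_le_of_finrank_eq
  · intro y hy
    obtain ⟨e, he, rfl⟩ := (mem_mapG _ _ _).1 hy
    exact hmap e he
  · rw [finrank_mapG, hfin]

theorem exists_isom_map [Finite F] (Q : QuadraticForm F (ι → F))
    (hQ : (polarBilin Q).Nondegenerate) (U W : Submodule F (ι → F))
    (hfin : finrank F U = finrank F W) (hU : TS Q U) (hW : TS Q W) :
    ∃ h : ↥(isometryGroup F ⇑Q), mapG (h : GL ι F) U = W := by
  obtain ⟨h, hh⟩ := witt_subspace Q hQ U W (LinearEquiv.ofFinrankEq U W hfin)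
    (fun x => by rw [hW _ (Subtype.property _), hU _ x.2])
  exact ⟨h, mapG_eq_of_act ⇑Q h U W hfin (fun x hx => by
    rw [hh ⟨x, hx⟩]
    exact Subtype.property _)⟩

theorem refl_pair_act (Q : QuadraticForm F (ι → F)) (a u : ι → F) (l : F) (hu : Q u = 0)
    (ha : Q a ≠ 0) (ha' : Q (a + l • u) ≠ 0) (x : ι → F) (hux : polar Q u x = 0) :
    act ⇑Q (reflElt Q a * reflElt Q (a + l • u)) x =
      x - (l * ((Q (a + l • u))⁻¹ * polar Q a x)) • u := by
  have hq' : Q (a + l • u) = Q a + l * polar Q a u := by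
    rw [qf_add, qf_smul, hu, polar_smul_right, smul_eq_mul]
    ring
  rw [act_mul, act_refl Q _ ha', act_refl Q _ ha, qrefl_apply, qrefl_apply]
  have h1 : polar Q (a + l • u) x = polar Q a x := by
    rw [polar_add_left, polar_smul_left, hux, smul_zero, add_zero]
  have h3 : polar Q a (x - ((Q (a + l • u))⁻¹ * polar Q (a + l • u) x) • (a + l • u)) =
      polar Q a x - ((Q (a + l • u))⁻¹ * polar Q a x) * (2 * Q a + l * polar Q a u) := by
    rw [h1, polar_sub_right, polar_smul_right, polar_add_right, polar_smul_right, qf_polar_self]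
    simp [smul_eq_mul]
  rw [h3, h1]
  have hc1 : (Q a)⁻¹ * Q a = 1 := inv_mul_cancel₀ ha
  have hc2 : (Q (a + l • u))⁻¹ * (Q a + l * polar Q a u) = 1 := by
    rw [← hq']
    exact inv_mul_cancel₀ ha'
  generalize (Q (a + l • u))⁻¹ = c' at hc2 ⊢
  generalize (Q a)⁻¹ = c at hc1 ⊢
  funext i
  simp only [Pi.sub_apply, Pi.smul_apply, Pi.add_apply, smul_eq_mul]
  linear_combination (c * polar Q a x * a i) * hc2 +
    (c' * polar Q a x * a i) * hc1

theorem parIso_refl (Q : QuadraticForm F (ι → F)) (hQ : (polarBilin Q).Nondegenerate) {m : ℕ}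
    (hV : finrank F (ι → F) = 2 * m) (E : Submodule F (ι → F)) (hE : TS Q E)
    (hEm : finrank F E = m) (hm : 1 ≤ m) (a : ι → F) (ha : Q a ≠ 0) :
    parIso Q hQ hV E hE hEm (reflElt Q a) = Multiplicative.ofAdd (1 : ZMod 2) := by
  show Multiplicative.ofAdd ((lagDist m E (reflElt Q a : GL ι F) : ℕ) : ZMod 2) = _
  rw [lagDist_refl Q hQ hV E hE hEm hm a ha]
  simp

theorem parIso_prod_refl (Q : QuadraticForm F (ι → F)) (hQ : (polarBilin Q).Nondegenerate)
    {m : ℕ} (hV : finrank F (ι → F) = 2 * m) (E : Submodule F (ι → F)) (hE : TS Q E)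
    (hEm : finrank F E = m) (hm : 1 ≤ m) (vs : List (ι → F)) (hvs : ∀ v ∈ vs, Q v ≠ 0) :
    parIso Q hQ hV E hE hEm ((vs.map (reflElt Q)).prod) =
      (Multiplicative.ofAdd (1 : ZMod 2)) ^ vs.length := by
  induction vs with
  | nil => simp
  | cons a l ih =>
    rw [List.map_cons, List.prod_cons, map_mul, ih (fun v hv => hvs v (List.mem_cons_of_mem a hv)),
      List.length_cons, pow_succ', parIso_refl Q hQ hV E hE hEm hm a (hvs a List.mem_cons_self)]

theorem parIso_eq_one_iff_det [Fintype F] (h2 : (2 : F) ≠ 0) (Q : QuadraticForm F (ι → F))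
    (hQ : (polarBilin Q).Nondegenerate) {m : ℕ} (hV : finrank F (ι → F) = 2 * m)
    (E : Submodule F (ι → F)) (hE : TS Q E) (hEm : finrank F E = m) (hm : 1 ≤ m)
    (g : ↥(isometryGroup F ⇑Q)) :
    parIso Q hQ hV E hE hEm g = 1 ↔ ((g : GL ι F) : Matrix ι ι F).det = 1 := by
  obtain ⟨vs, hvs, rfl⟩ := exists_refl_list h2 Q hQ g
  rw [coe_prod_reflElt _ vs hvs, det_eq_one_iff_even h2 _ vs hvs,
    parIso_prod_refl Q hQ hV E hE hEm hm vs hvs, ← ofAdd_nsmul, ofAdd_eq_one, nsmul_one,
    ZMod.natCast_eq_zero_iff_even]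

theorem mem_Omega_of_parIso_char2 [Fintype F] [CharP F 2] (Q : QuadraticForm F (ι → F))
    (hQ : (polarBilin Q).Nondegenerate) (h : Fintype.card F ≠ 2 ∨ Fintype.card ι ≠ 4) {m : ℕ}
    (hV : finrank F (ι → F) = 2 * m) (E : Submodule F (ι → F)) (hE : TS Q E)
    (hEm : finrank F E = m) (hm : 1 ≤ m) (g : ↥(isometryGroup F ⇑Q))
    (hg : parIso Q hQ hV E hE hEm g = 1) : g ∈ Omega F ⇑Q := by
  obtain ⟨a₀, ha₀⟩ := exists_nonsing Q hQ (by
    rw [← Module.finrank_fintype_fun_eq_card (R := F), hV]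
    omega)
  rcases Omega_dichotomy Q hQ h a₀ ha₀ g with h1 | h1
  · exact h1
  · exfalso
    have h3 : parIso Q hQ hV E hE hEm (reflElt Q a₀ * g) = 1 :=
      Abelianization.commutator_subset_ker _ h1
    rw [map_mul, hg, mul_one, parIso_refl Q hQ hV E hE hEm hm a₀ ha₀] at h3
    exact absurd h3 (by decide)

theorem sq_mem_Omega [Fintype F] (h2 : (2 : F) ≠ 0) (Q : QuadraticForm F (ι → F))
    (hQ : (polarBilin Q).Nondegenerate) (g : ↥(isometryGroup F ⇑Q)) : g * g ∈ Omega F ⇑Q := by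
  rw [mem_Omega_iff_det_spinor h2 Q hQ]
  constructor
  · rw [Subgroup.coe_mul, Units.val_mul, Matrix.det_mul]
    rcases det_iso_dichotomy h2 Q hQ g with h | h <;> rw [h] <;> ring
  · rw [map_mul]
    exact zmod2_sq _

theorem sq_mem_Omega_char2 [Fintype F] [CharP F 2] (Q : QuadraticForm F (ι → F))
    (hQ : (polarBilin Q).Nondegenerate) (h : Fintype.card F ≠ 2 ∨ Fintype.card ι ≠ 4)
    (g : ↥(isometryGroup F ⇑Q)) : g * g ∈ Omega F ⇑Q := by
  rcases Nat.eq_zero_or_pos (Fintype.card ι) with h0 | h0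
  · have : g = 1 := by
      apply act_ext
      intro x
      haveI : IsEmpty ι := Fintype.card_eq_zero_iff.1 h0
      exact Subsingleton.elim _ _
    rw [this, mul_one]
    exact Subgroup.one_mem _
  · obtain ⟨a₀, ha₀⟩ := exists_nonsing Q hQ h0
    rcases Omega_dichotomy Q hQ h a₀ ha₀ g with h1 | h1
    · exact Subgroup.mul_mem _ h1 h1
    · have e : g * g = (reflElt Q a₀ * (reflElt Q a₀ * g) * (reflElt Q a₀)⁻¹) *
          (reflElt Q a₀ * g) := by
        rw [reflElt_inv]
        simp only [mul_assoc]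
        rw [← mul_assoc (reflElt Q a₀) (reflElt Q a₀), reflElt_mul_self, one_mul,
          ← mul_assoc (reflElt Q a₀) (reflElt Q a₀), reflElt_mul_self, one_mul]
      rw [e]
      haveI : (Omega F ⇑Q).Normal := by
        show (commutator _).Normal
        infer_instance
      exact Subgroup.mul_mem _ (Subgroup.Normal.conj_mem inferInstance _ h1 _) h1

/-- an element of `SO` with non-square spinor norm stabilising a totally singular subspace -/
theorem exists_stab_spinor [Fintype F] (h2 : (2 : F) ≠ 0) (Q : QuadraticForm F (ι → F))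
    (hQ : (polarBilin Q).Nondegenerate) (U : Submodule F (ι → F)) (hU : TS Q U) (hU0 : U ≠ ⊥) :
    ∃ s : ↥(isometryGroup F ⇑Q), ((s : GL ι F) : Matrix ι ι F).det = 1 ∧
      spinorHom h2 Q hQ s ≠ 1 ∧ mapG (s : GL ι F) U = U := by
  obtain ⟨u, huU, hu0⟩ := Submodule.exists_mem_ne_zero_of_ne_bot hU0
  have hQu : Q u = 0 := hU u huU
  obtain ⟨y, hy⟩ : ∃ y, polar Q u y ≠ 0 := by
    by_contra hcon
    push Not at hcon
    exact hu0 (hQ.1 u hcon)
  have hβ : polar Q y u ≠ 0 := by rw [polar_comm]; exact hy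
  have hQa : Q (y + ((1 - Q y) / polar Q y u) • u) = 1 := by
    rw [qf_add, qf_smul, hQu, polar_smul_right, smul_eq_mul]
    field_simp
    ring
  have hβa : polar Q (y + ((1 - Q y) / polar Q y u) • u) u = polar Q y u := by
    rw [polar_add_left, polar_smul_left, qf_polar_self, hQu]
    simp
  generalize y + ((1 - Q y) / polar Q y u) • u = a at hQa hβa
  obtain ⟨ν, hν⟩ := FiniteField.exists_nonsquare (ringChar_ne_two_of_two_ne_zero h2)
  have hν0 : ν ≠ 0 := by
    rintro rfl
    exact hν ⟨0, by ring⟩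
  have hQa' : Q (a + ((ν - 1) / polar Q y u) • u) = ν := by
    rw [qf_add, qf_smul, hQu, polar_smul_right, hβa, hQa, smul_eq_mul]
    field_simp
    ring
  have ha : Q a ≠ 0 := by rw [hQa]; exact one_ne_zero
  have ha' : Q (a + ((ν - 1) / polar Q y u) • u) ≠ 0 := by rw [hQa']; exact hν0
  refine ⟨reflElt Q a * reflElt Q (a + ((ν - 1) / polar Q y u) • u), ?_, ?_, ?_⟩
  · rw [Subgroup.coe_mul, Units.val_mul, Matrix.det_mul, det_refl Q a ha, det_refl Q _ ha']
    ring
  · have h := spinorHom_prod_eq_one_iff h2 Q hQ [a, a + ((ν - 1) / polar Q y u) • u] (by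
      intro v hv
      simp only [List.mem_cons, List.not_mem_nil, or_false] at hv
      rcases hv with rfl | rfl
      · exact ha
      · exact ha')
    simp only [List.map_cons, List.map_nil, List.prod_cons, List.prod_nil, mul_one, hQa, hQa',
      one_mul] at h
    rw [Ne, h]
    exact hν
  · apply mapG_eq_of_act ⇑Q _ U U rfl
    intro x hx
    rw [refl_pair_act Q a u _ hQu ha ha' x (hU.polar_eq_zero huU hx)]
    exact U.sub_mem hx (U.smul_mem _ huU)

end OmegaTrans

end Cfsg.Agent.Helper16
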