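import Cfsg.Agent.Helper16.ThreeTransp
import Cfsg.Agent.Helper16.OmegaTrans

set_option autoImplicit false
open Cfsg

namespace Cfsg.Agent.Helper16

open QuadraticMap Module

section MaxTS
variable {ι : Type} [Fintype ι] [DecidableEq ι] {F : Type*} [Field F]

/-- a totally singular subspace cannot be bigger than a maximal one -/
theorem TS_finrank_le_of_max (Q : QuadraticForm F (ι → F)) (hQ : (polarBilin Q).Nondegenerate)
    (E U : Submodule F (ι → F)) (hmax : ∀ x ∈ orth Q E, Q x = 0 → x ∈ E) (hU : TS Q U) :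
    finrank F U ≤ finrank F E := by
  have ha : U ⊓ orth Q E ≤ E ⊓ orth Q U := by
    rintro x ⟨hxU, hxE⟩
    exact ⟨hmax x hxE (hU x hxU), hU.le_orth hxU⟩
  have hb := Submodule.finrank_sup_add_finrank_inf_eq U (orth Q E)
  have hc : finrank F (E ⊓ orth Q U : Submodule F (ι → F)) =
      Fintype.card ι - finrank F (U ⊔ orth Q E : Submodule F (ι → F)) := by
    rw [← Module.finrank_fintype_fun_eq_card (R := F), ← finrank_orth Q hQ (U ⊔ orth Q E), orth_sup,
      orth_orth Q hQ, inf_comm]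
  have hd := finrank_orth Q hQ E
  rw [Module.finrank_fintype_fun_eq_card] at hd
  have he := Submodule.finrank_mono ha
  have hf : finrank F (U ⊔ orth Q E : Submodule F (ι → F)) ≤ Fintype.card ι := by
    rw [← Module.finrank_fintype_fun_eq_card (R := F)]
    exact Submodule.finrank_le _
  have hg : finrank F E ≤ Fintype.card ι := by
    rw [← Module.finrank_fintype_fun_eq_card (R := F)]
    exact Submodule.finrank_le _
  omega

theorem range_toLin'_sub_one (Q : (ι → F) → F) (g : ↥(isometryGroup F Q)) :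
    LinearMap.range (Matrix.toLin' (((g : GL ι F) : Matrix ι ι F) - 1)) = movSub Q g := by
  unfold movSub
  congr 1
  apply LinearMap.ext
  intro x
  rw [Matrix.toLin'_apply, LinearMap.sub_apply, Matrix.sub_mulVec, Matrix.one_mulVec]
  rfl

end MaxTS

section InvolSplit
variable {ι : Type} [Fintype ι] [DecidableEq ι] {F : Type*} [Field F] [CharP F 2]

theorem mov_le_fix (Q : (ι → F) → F) (t : ↥(isometryGroup F Q)) (ht : t * t = 1) :
    movSub Q t ≤ fixSub Q t := by
  intro a ha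
  obtain ⟨x, rfl⟩ := (mem_movSub _ _ _).1 ha
  rw [mem_fixSub, act_add, ← act_mul, ht, act_one, add_comm]

theorem fix_TS_finrank (Q : QuadraticForm F (ι → F)) (hQ : (polarBilin Q).Nondegenerate)
    (t : ↥(isometryGroup F ⇑Q)) (ht : t * t = 1) (hTS : TS Q (fixSub ⇑Q t)) :
    2 * finrank F (fixSub ⇑Q t) = Fintype.card ι ∧ movSub ⇑Q t = fixSub ⇑Q t := by
  have h1 := TS_finrank_le Q hQ _ hTS
  have h2 := Submodule.finrank_mono (mov_le_fix ⇑Q t ht)
  have h3 := finrank_mov_add_fix ⇑Q t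
  have h4 : 2 * finrank F (fixSub ⇑Q t) = Fintype.card ι := by omega
  exact ⟨h4, Submodule.eq_of_le_of_finrank_eq (mov_le_fix ⇑Q t ht) (by omega)⟩

theorem movSub_conj (Q : (ι → F) → F) (g t : ↥(isometryGroup F Q)) :
    movSub Q (g * t * g⁻¹) = mapG (g : GL ι F) (movSub Q t) := by
  ext y
  rw [mem_movSub, mem_mapG]
  constructor
  · rintro ⟨x, rfl⟩
    refine ⟨act Q t (act Q g⁻¹ x) + act Q g⁻¹ x, (mem_movSub _ _ _).2 ⟨_, rfl⟩, ?_⟩
    show act Q g (act Q t (act Q g⁻¹ x) + act Q g⁻¹ x) = _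
    rw [act_add, ← act_mul Q g g⁻¹, mul_inv_cancel, act_one, act_mul, act_mul]
  · rintro ⟨e, he, rfl⟩
    obtain ⟨x, rfl⟩ := (mem_movSub _ _ _).1 he
    refine ⟨act Q g x, ?_⟩
    show _ = act Q g (act Q t x + x)
    rw [act_mul, act_mul, ← act_mul Q g⁻¹ g, inv_mul_cancel, act_one, act_add]

/-- if `t` fixes a non-singular vector, conjugacy under `O` is conjugacy under `Ω` -/
theorem conj_in_Omega_of_fixed_nonsing [Fintype F] (Q : QuadraticForm F (ι → F))
    (hQ : (polarBilin Q).Nondegenerate) (h : Fintype.card F ≠ 2 ∨ Fintype.card ι ≠ 4)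
    (t s : ↥(isometryGroup F ⇑Q)) (hconj : IsConj t s) (a : ι → F) (ha : Q a ≠ 0)
    (hfix : act ⇑Q t a = a) : ∃ g ∈ Omega F ⇑Q, g * t * g⁻¹ = s := by
  obtain ⟨g, hg⟩ := isConj_iff.1 hconj
  have hcomm : reflElt Q a * t * (reflElt Q a)⁻¹ = t := by
    have h1 := reflElt_conj Q t a ha
    have h2 : reflElt Q (((t : GL ι F) : Matrix ι ι F).mulVec a) = reflElt Q a := by
      congr 1
    rw [h2] at h1
    calc reflElt Q a * t * (reflElt Q a)⁻¹ = (t * reflElt Q a * t⁻¹) * t * (reflElt Q a)⁻¹ := by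
          rw [h1]
      _ = t := by group
  rcases Omega_dichotomy Q hQ h (act ⇑Q g a) (by rw [act_Q ⇑Q g]; exact ha) g with h1 | h1
  · exact ⟨g, h1, hg⟩
  · have e : reflElt Q (act ⇑Q g a) * g = g * reflElt Q a := by
      have := reflElt_conj Q g a ha
      rw [show reflElt Q (act ⇑Q g a) = g * reflElt Q a * g⁻¹ from this.symm]
      group
    rw [e] at h1
    refine ⟨g * reflElt Q a, h1, ?_⟩
    calc g * reflElt Q a * t * (g * reflElt Q a)⁻¹
        = g * (reflElt Q a * t * (reflElt Q a)⁻¹) * g⁻¹ := by group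
      _ = s := by rw [hcomm, hg]

theorem sq_of_orderOf_two {G : Type*} [Group G] (t : G) (ht : orderOf t = 2) : t * t = 1 := by
  have := pow_orderOf_eq_one t
  rw [ht, pow_two] at this
  exact this

end InvolSplit

section MinusE
variable (k : ℕ) (F : Type*) [Field F] (c d : F)

/-- the standard maximal totally singular subspace of the minus-type form -/
def minusE : Submodule F ((Fin k ⊕ Fin k) ⊕ Fin 2 → F) :=
  Submodule.span F (Set.range (fun i : Fin k =>
    (Pi.single (Sum.inl (Sum.inl i)) (1 : F) : (Fin k ⊕ Fin k) ⊕ Fin 2 → F)))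

theorem finrank_minusE_le : finrank F (minusE k F) ≤ k := by
  have := finrank_range_le_card (R := F) (fun i : Fin k =>
    (Pi.single (Sum.inl (Sum.inl i)) (1 : F) : (Fin k ⊕ Fin k) ⊕ Fin 2 → F))
  rw [Fintype.card_fin] at this
  exact this

theorem minusE_max (hcd : ∀ z₁ z₂ : F, z₁ ^ 2 + c * z₁ * z₂ + d * z₂ ^ 2 = 0 → z₁ = 0 ∧ z₂ = 0) :
    ∀ x ∈ orth (qfMinus k F c d) (minusE k F), qfMinus k F c d x = 0 → x ∈ minusE k F := by
  intro x hx hq
  have hy : ∀ i, x (Sum.inl (Sum.inr i)) = 0 := by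
    intro i
    have := hx _ (Submodule.subset_span (Set.mem_range_self i))
    have h2 : polar ⇑(qfMinus k F c d) (Pi.single (Sum.inl (Sum.inl i)) 1) x = 0 := this
    rw [polar_qfMinus_inl] at h2
    exact h2
  rw [qfMinus_apply] at hq
  unfold Cfsg.quadFormMinus at hq
  have hsum : ∑ i : Fin k, x (Sum.inl (Sum.inl i)) * x (Sum.inl (Sum.inr i)) = 0 :=
    Finset.sum_eq_zero (fun i _ => by rw [hy i, mul_zero])
  rw [hsum, zero_add] at hq
  obtain ⟨hz0, hz1⟩ := hcd _ _ hq
  rw [minusE, Submodule.mem_span_range_iff_exists_fun]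
  refine ⟨fun i => x (Sum.inl (Sum.inl i)), ?_⟩
  funext idx
  rcases idx with (i | i) | j
  · simp [Finset.sum_apply, Pi.single_apply]
  · simp [Finset.sum_apply, Pi.single_apply, hy i]
  · fin_cases j
    · simp [Finset.sum_apply, hz0]
    · simp [Finset.sum_apply, hz1]

theorem minus_TS_finrank_le
    (hcd : ∀ z₁ z₂ : F, z₁ ^ 2 + c * z₁ * z₂ + d * z₂ ^ 2 = 0 → z₁ = 0 ∧ z₂ = 0)
    (hnd : (polarBilin (qfMinus k F c d)).Nondegenerate)
    (U : Submodule F ((Fin k ⊕ Fin k) ⊕ Fin 2 → F)) (hU : TS (qfMinus k F c d) U) :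
    finrank F U ≤ k :=
  le_trans (TS_finrank_le_of_max _ hnd (minusE k F) U (minusE_max k F c d hcd) hU)
    (finrank_minusE_le k F)

end MinusE

end Cfsg.Agent.Helper16
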