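import Cfsg.Agent.Helper16.OmegaTrans

set_option autoImplicit false
open Cfsg

namespace Cfsg.Agent.Helper16

open QuadraticMap Module

section RepSub
variable {F V : Type*} [Field F] [AddCommGroup V] [Module F V]

/-- a non-degenerate subspace of dimension at least two represents every non-zero scalar -/
theorem exists_rep_sub [Finite F] [FiniteDimensional F V] (h2 : (2 : F) ≠ 0)
    (Q : QuadraticForm F V) (A : Submodule F V) (hA : A ⊓ orth Q A = ⊥)
    (hdim : 2 ≤ finrank F A) (c : F) (hc : c ≠ 0) : ∃ a ∈ A, Q a = c := by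
  have hcQ : (polarBilin ((c⁻¹ • Q).comp A.subtype)).Nondegenerate := by
    apply ((polarBilin_isSymm _).isRefl.nondegenerate_iff_separatingLeft).2
    intro x hx
    have hx0 : (x : V) ∈ A ⊓ orth Q A := by
      refine ⟨x.2, ?_⟩
      show (x : V) ∈ orth Q A
      rw [mem_orth]
      intro u hu
      have h := hx ⟨u, hu⟩
      have h' : c⁻¹ * polar Q (x : V) u = 0 := by
        have : polar (⇑((c⁻¹ • Q).comp A.subtype)) x ⟨u, hu⟩ = c⁻¹ * polar Q (x : V) u := by
          simp only [polar, QuadraticMap.comp_apply, QuadraticMap.smul_apply, smul_eq_mul,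
            Submodule.subtype_apply, Submodule.coe_add]
          ring
        rw [← this]
        exact h
      rw [polar_comm]
      rcases mul_eq_zero.1 h' with h0 | h0
      · exact absurd h0 (inv_ne_zero hc)
      · exact h0
    rw [hA] at hx0
    exact Subtype.ext ((Submodule.mem_bot F).1 hx0)
  obtain ⟨x, hx⟩ := exists_rep_one' h2 _ hcQ hdim
  refine ⟨x, x.2, ?_⟩
  have hx' : c⁻¹ * Q (x : V) = 1 := hx
  field_simp at hx'
  exact hx'

theorem orth_orth [FiniteDimensional F V] (Q : QuadraticForm F V)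
    (hQ : (polarBilin Q).Nondegenerate) (U : Submodule F V) : orth Q (orth Q U) = U :=
  LinearMap.BilinForm.orthogonal_orthogonal hQ (polarBilin_isSymm Q).isRefl U

end RepSub

section NondegTrans
variable {ι : Type} [Fintype ι] [DecidableEq ι] {F : Type*} [Field F]

/-- a reflection in a vector of `U` or of `U^⊥` stabilises `U` -/
theorem refl_stab (Q : QuadraticForm F (ι → F)) (U : Submodule F (ι → F)) (a : ι → F)
    (ha : Q a ≠ 0) (haU : a ∈ U ∨ a ∈ orth Q U) : mapG (reflElt Q a : GL ι F) U = U := by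
  apply mapG_eq_of_act ⇑Q _ U U rfl
  intro x hx
  rw [act_refl Q a ha]
  rcases haU with h | h
  · rw [qrefl_apply]
    exact U.sub_mem hx (U.smul_mem _ h)
  · rw [qrefl_of_orth Q a x (by rw [polar_comm]; exact h x hx)]
    exact hx

/-- there is a non-singular vector in `U` or in `U^⊥` -/
theorem exists_nonsing_stab [Fintype F] (Q : QuadraticForm F (ι → F))
    (hQ : (polarBilin Q).Nondegenerate) (hn : 1 ≤ Fintype.card ι) (U : Submodule F (ι → F))
    (hU : U ⊓ orth Q U = ⊥) : ∃ a : ι → F, Q a ≠ 0 ∧ (a ∈ U ∨ a ∈ orth Q U) := by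
  by_contra hcon
  push Not at hcon
  have hTS : TS Q U := fun u hu => by
    by_contra h0
    exact (hcon u h0).1 hu
  have hUb : U = ⊥ := by
    rw [← hU]
    exact (inf_eq_left.2 hTS.le_orth).symm
  obtain ⟨a, ha⟩ := exists_nonsing Q hQ hn
  apply (hcon a ha).2
  rw [hUb, mem_orth]
  intro u hu
  rw [(Submodule.mem_bot F).1 hu]
  simp [polar]

/-- `Ω` is transitive on non-degenerate subspaces of a given isometry type -/
theorem nondeg_trans [Fintype F] (hn : 3 ≤ Fintype.card ι)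
    (h : Fintype.card F ≠ 2 ∨ Fintype.card ι ≠ 4) (Q : QuadraticForm F (ι → F))
    (hQ : (polarBilin Q).Nondegenerate) (U W : Submodule F (ι → F))
    (hU : U ⊓ orth Q U = ⊥) (e : U ≃ₗ[F] W)
    (he : ∀ u : U, Q (e u : ι → F) = Q (u : ι → F)) :
    ∃ g : ↥(isometryGroup F ⇑Q), g ∈ Omega F ⇑Q ∧ mapG (g : GL ι F) U = W := by
  obtain ⟨h₀, hh0⟩ := witt_subspace Q hQ U W e he
  have hh : mapG (h₀ : GL ι F) U = W :=
    mapG_eq_of_act ⇑Q h₀ U W (LinearEquiv.finrank_eq e) (fun x hx => by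
      rw [hh0 ⟨x, hx⟩]
      exact Subtype.property _)
  have hstab : ∀ s : ↥(isometryGroup F ⇑Q), mapG (s : GL ι F) U = U →
      mapG ((h₀ * s : ↥(isometryGroup F ⇑Q)) : GL ι F) U = W := by
    intro s hs
    rw [Subgroup.coe_mul, mapG_mul, hs, hh]
  by_cases h2 : (2 : F) = 0
  · haveI : CharP F 2 := CharTwo.of_one_ne_zero_of_two_eq_zero one_ne_zero h2
    obtain ⟨a, ha, haU⟩ := exists_nonsing_stab Q hQ (by omega) U hU
    rcases Omega_dichotomy Q hQ h (act ⇑Q h₀ a) (by rw [act_Q ⇑Q h₀]; exact ha) h₀ with hg | hg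
    · exact ⟨h₀, hg, hh⟩
    · have e' : reflElt Q (act ⇑Q h₀ a) * h₀ = h₀ * reflElt Q a := by
        have := reflElt_conj Q h₀ a ha
        rw [show reflElt Q (act ⇑Q h₀ a) = h₀ * reflElt Q a * h₀⁻¹ from this.symm]
        group
      rw [e'] at hg
      exact ⟨h₀ * reflElt Q a, hg, hstab _ (refl_stab Q U a ha haU)⟩
  · obtain ⟨A, hAU, hA, hAd⟩ : ∃ A : Submodule F (ι → F), (A = U ∨ A = orth Q U) ∧
        A ⊓ orth Q A = ⊥ ∧ 2 ≤ finrank F A := by
      by_cases hd : 2 ≤ finrank F U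
      · exact ⟨U, Or.inl rfl, hU, hd⟩
      · refine ⟨orth Q U, Or.inr rfl, ?_, ?_⟩
        · rw [orth_orth Q hQ, inf_comm]
          exact hU
        · rw [finrank_orth Q hQ, Module.finrank_fintype_fun_eq_card]
          omega
    have hAmem : ∀ a ∈ A, a ∈ U ∨ a ∈ orth Q U := by
      intro a ha
      rcases hAU with rfl | rfl
      · exact Or.inl ha
      · exact Or.inr ha
    obtain ⟨ν, hν⟩ := FiniteField.exists_nonsquare (ringChar_ne_two_of_two_ne_zero h2)
    have hν0 : ν ≠ 0 := by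
      rintro rfl
      exact hν ⟨0, by simp⟩
    obtain ⟨a₁, ha₁A, ha₁⟩ := exists_rep_sub h2 Q A hA hAd 1 one_ne_zero
    obtain ⟨a₂, ha₂A, ha₂⟩ := exists_rep_sub h2 Q A hA hAd ν hν0
    have hq₁ : Q a₁ ≠ 0 := by rw [ha₁]; exact one_ne_zero
    have hq₂ : Q a₂ ≠ 0 := by rw [ha₂]; exact hν0
    have hs₁ := refl_stab Q U a₁ hq₁ (hAmem a₁ ha₁A)
    have hs₂ := refl_stab Q U a₂ hq₂ (hAmem a₂ ha₂A)
    have hsp₁ : spinorHom h2 Q hQ (reflElt Q a₁) = 1 := by
      rw [spinorHom_refl_eq_one_iff h2 Q hQ a₁ hq₁, ha₁]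
      exact ⟨1, by simp⟩
    have hsp₂ : spinorHom h2 Q hQ (reflElt Q a₂) ≠ 1 := by
      rw [Ne, spinorHom_refl_eq_one_iff h2 Q hQ a₂ hq₂, ha₂]
      exact hν
    rcases det_iso_dichotomy h2 Q hQ h₀ with hd | hd
    · by_cases hsp : spinorHom h2 Q hQ h₀ = 1
      · exact ⟨h₀, (mem_Omega_iff_det_spinor h2 Q hQ h₀).2 ⟨hd, hsp⟩, hh⟩
      · refine ⟨h₀ * (reflElt Q a₁ * reflElt Q a₂),
          (mem_Omega_iff_det_spinor h2 Q hQ _).2 ⟨?_, ?_⟩, hstab _ ?_⟩
        · rw [Subgroup.coe_mul, Units.val_mul, Matrix.det_mul, hd, Subgroup.coe_mul,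
            Units.val_mul, Matrix.det_mul, det_refl Q a₁ hq₁, det_refl Q a₂ hq₂]
          ring
        · rw [map_mul, map_mul, hsp₁, one_mul]
          exact zmod2_mul_eq_one _ _ hsp hsp₂
        · rw [Subgroup.coe_mul, mapG_mul, hs₂, hs₁]
    · by_cases hsp : spinorHom h2 Q hQ h₀ = 1
      · refine ⟨h₀ * reflElt Q a₁,
          (mem_Omega_iff_det_spinor h2 Q hQ _).2 ⟨?_, ?_⟩, hstab _ hs₁⟩
        · rw [Subgroup.coe_mul, Units.val_mul, Matrix.det_mul, hd, det_refl Q a₁ hq₁]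
          ring
        · rw [map_mul, hsp₁, hsp, one_mul]
      · refine ⟨h₀ * reflElt Q a₂,
          (mem_Omega_iff_det_spinor h2 Q hQ _).2 ⟨?_, ?_⟩, hstab _ hs₂⟩
        · rw [Subgroup.coe_mul, Units.val_mul, Matrix.det_mul, hd, det_refl Q a₂ hq₂]
          ring
        · rw [map_mul]
          exact zmod2_mul_eq_one _ _ hsp hsp₂

end NondegTrans

end Cfsg.Agent.Helper16
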