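import Cfsg.Agent.Helper16.Omega6MinusB
import Cfsg.Agent.Helper16.Simple
import Cfsg.Agent.S4337
import Cfsg.Agent.S0278

set_option autoImplicit false
open Cfsg

namespace Cfsg.Agent.Helper16

open Matrix

section LemmaB

/-- a finite perfect group has no proper subgroup of index at most four -/
theorem eq_top_of_perfect_index_le_four {G : Type*} [Group G] [Finite G]
    (hperf : commutator G = ⊤) (H : Subgroup G) (hH : H.index ≤ 4) : H = ⊤ := by
  classical
  haveI : Fintype (G ⧸ H) := Fintype.ofFinite _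
  have hcard : Fintype.card (G ⧸ H) ≤ 4 := by
    rw [← Nat.card_eq_fintype_card]
    exact hH
  have hsol := Cfsg.Agent.S4337.solvable_perm_of_card_le_four (G ⧸ H) hcard
  obtain ⟨n, hn⟩ := hsol.solvable
  have hG : ∀ n, derivedSeries G n = ⊤ := by
    intro n
    induction n with
    | zero => rfl
    | succ n ih =>
      rw [derivedSeries_succ, ih]
      exact hperf
  let f : G →* Equiv.Perm (G ⧸ H) := MulAction.toPermHom G (G ⧸ H)
  have h1 := map_derivedSeries_le_derivedSeries f n
  rw [hG, hn] at h1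
  rw [eq_top_iff]
  intro g _
  have h2 : f g = 1 := by
    have : f g ∈ Subgroup.map f ⊤ := Subgroup.mem_map_of_mem f (Subgroup.mem_top g)
    exact Subgroup.mem_bot.1 (h1 this)
  have h3 : f g ((1 : G) : G ⧸ H) = ((1 : G) : G ⧸ H) := by rw [h2]; rfl
  have h4 : ((g * 1 : G) : G ⧸ H) = ((1 : G) : G ⧸ H) := h3
  rw [QuotientGroup.eq] at h4
  simpa using h4

end LemmaB

section Center
variable {K : Type*} [Field K] [Fintype K] {q : ℕ}

theorem offdiag_zero_of_comm_diag (S : Matrix (Fin 4) (Fin 4) K) (d : Fin 4 → K)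
    (h : S * Matrix.diagonal d = Matrix.diagonal d * S) (i j : Fin 4) (hij : d i ≠ d j) :
    S i j = 0 := by
  have h1 := congrFun (congrFun h i) j
  rw [Matrix.mul_diagonal, Matrix.diagonal_mul] at h1
  have h2 : S i j * (d j - d i) = 0 := by linear_combination h1
  rcases mul_eq_zero.1 h2 with h3 | h3
  · exact h3
  · exact absurd (sub_eq_zero.1 h3).symm hij

/-- diagonal elements of `SU₄` -/
def diagSU (l : K) (hl : l * l ^ q = 1) (d : Fin 4 → K) (hd : ∀ i, d i = l ∨ d i = l⁻¹ ∨ d i = 1)
    (hdet : ∏ i, d i = 1) : ↥(SU 4 K q) :=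
  ⟨⟨Matrix.diagonal d, by rw [Matrix.det_diagonal]; exact hdet⟩,
    Cfsg.Agent.Helper3.diag_pres d (by
      intro i
      rcases hd i with h | h | h
      · rw [h]; exact hl
      · rw [h, inv_pow, ← mul_inv, hl, inv_one]
      · rw [h, one_pow, mul_one])⟩

/-- the permutation matrix of the cycle `(0 1 2)` -/
def perm012 : Matrix (Fin 4) (Fin 4) K := !![0, 1, 0, 0; 0, 0, 1, 0; 1, 0, 0, 0; 0, 0, 0, 1]

/-- the permutation matrix of the cycle `(1 2 3)` -/
def perm123 : Matrix (Fin 4) (Fin 4) K := !![1, 0, 0, 0; 0, 0, 1, 0; 0, 0, 0, 1; 0, 1, 0, 0]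

theorem perm012_det : (perm012 (K := K)).det = 1 := by
  rw [det4]
  simp [perm012]

theorem perm123_det : (perm123 (K := K)).det = 1 := by
  rw [det4]
  simp [perm123]

theorem perm012_pres : Cfsg.Agent.Helper3.HPres 4 q (perm012 (K := K)) := by
  intro u v
  simp only [hermForm, Fin.sum_univ_four, Matrix.mulVec, dotProduct, perm012]
  simp
  ring

theorem perm123_pres : Cfsg.Agent.Helper3.HPres 4 q (perm123 (K := K)) := by
  intro u v
  simp only [hermForm, Fin.sum_univ_four, Matrix.mulVec, dotProduct, perm123]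
  simp
  ring

/-- an element of `SU₄` commuting up to sign with every element is central -/
theorem SU4_central_of_pm (hK : Fintype.card K = q ^ 2) (s : ↥(SU 4 K q))
    (h : ∀ t : ↥(SU 4 K q), s.1.val * t.1.val = t.1.val * s.1.val ∨
      s.1.val * t.1.val = -(t.1.val * s.1.val)) : s ∈ Subgroup.center ↥(SU 4 K q) := by
  have hsq : ∀ t : ↥(SU 4 K q), s.1.val * (t.1.val * t.1.val) = (t.1.val * t.1.val) * s.1.val := by
    intro t
    rcases h t with h1 | h1
    · rw [← Matrix.mul_assoc, h1, Matrix.mul_assoc, h1, Matrix.mul_assoc]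
    · rw [← Matrix.mul_assoc, h1, Matrix.neg_mul, Matrix.mul_assoc, h1, Matrix.mul_neg, neg_neg,
        Matrix.mul_assoc]
  obtain ⟨l, hl, hl1, hl2⟩ := Cfsg.Agent.Helper3.exists_norm_one_ne hK
  have hl0 : l ≠ 0 := by
    rintro rfl
    rw [zero_mul] at hl
    exact zero_ne_one hl
  have hl2' : l⁻¹ * l⁻¹ ≠ 1 := by
    intro h3
    apply hl2
    have : (l * l)⁻¹ = 1 := by rw [mul_inv]; exact h3
    exact inv_eq_one.1 this
  -- two diagonal elements
  have hc1 := hsq (diagSU l hl ![l, l⁻¹, 1, 1] (by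
    intro i
    fin_cases i <;> simp) (by
    rw [Fin.prod_univ_four]
    simp [hl0]))
  have hc2 := hsq (diagSU l hl ![l, 1, l⁻¹, 1] (by
    intro i
    fin_cases i <;> simp) (by
    rw [Fin.prod_univ_four]
    simp [hl0]))
  have hc1' : s.1.val * Matrix.diagonal (fun i => (![l, l⁻¹, 1, 1] : Fin 4 → K) i *
      (![l, l⁻¹, 1, 1] : Fin 4 → K) i) =
      Matrix.diagonal (fun i => (![l, l⁻¹, 1, 1] : Fin 4 → K) i *
      (![l, l⁻¹, 1, 1] : Fin 4 → K) i) * s.1.val := by
    rw [← Matrix.diagonal_mul_diagonal]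
    exact hc1
  have hc2' : s.1.val * Matrix.diagonal (fun i => (![l, 1, l⁻¹, 1] : Fin 4 → K) i *
      (![l, 1, l⁻¹, 1] : Fin 4 → K) i) =
      Matrix.diagonal (fun i => (![l, 1, l⁻¹, 1] : Fin 4 → K) i *
      (![l, 1, l⁻¹, 1] : Fin 4 → K) i) * s.1.val := by
    rw [← Matrix.diagonal_mul_diagonal]
    exact hc2
  have o1 := offdiag_zero_of_comm_diag _ _ hc1'
  have o2 := offdiag_zero_of_comm_diag _ _ hc2'
  have hll : l * l ≠ 1 * 1 := by rw [one_mul]; exact hl2
  have hll' : l⁻¹ * l⁻¹ ≠ 1 * 1 := by rw [one_mul]; exact hl2'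
  have h01 : s.1.val 0 1 = 0 := o2 0 1 hll
  have h02 : s.1.val 0 2 = 0 := o1 0 2 hll
  have h03 : s.1.val 0 3 = 0 := o1 0 3 hll
  have h10 : s.1.val 1 0 = 0 := o2 1 0 hll.symm
  have h12 : s.1.val 1 2 = 0 := o1 1 2 hll'
  have h13 : s.1.val 1 3 = 0 := o1 1 3 hll'
  have h20 : s.1.val 2 0 = 0 := o1 2 0 hll.symm
  have h21 : s.1.val 2 1 = 0 := o1 2 1 hll'.symm
  have h23 : s.1.val 2 3 = 0 := o2 2 3 hll'
  have h30 : s.1.val 3 0 = 0 := o1 3 0 hll.symm
  have h31 : s.1.val 3 1 = 0 := o1 3 1 hll'.symm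
  have h32 : s.1.val 3 2 = 0 := o2 3 2 hll'.symm
  -- two three-cycles
  have hp1 := hsq ⟨⟨perm012, perm012_det⟩, perm012_pres⟩
  have hp2 := hsq ⟨⟨perm123, perm123_det⟩, perm123_pres⟩
  have e1 := congrFun (congrFun hp1 0) 2
  have e2 := congrFun (congrFun hp1 1) 0
  have e3 := congrFun (congrFun hp2 1) 3
  simp [Matrix.mul_apply, Fin.sum_univ_four, perm012, perm123, h01, h02, h03, h10, h12, h13, h20,
    h21, h23, h30, h31, h32] at e1 e2 e3
  have hs : s.1.val = s.1.val 0 0 • (1 : Matrix (Fin 4) (Fin 4) K) := by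
    ext i j
    have h11 : s.1.val 1 1 = s.1.val 0 0 := e2
    have h22 : s.1.val 2 2 = s.1.val 0 0 := e1.symm
    have h33 : s.1.val 3 3 = s.1.val 0 0 := by rw [← e3, e2]
    fin_cases i <;> fin_cases j <;>
      simp [h01, h02, h03, h10, h12, h13, h20, h21, h23, h30, h31, h32, h11, h22, h33]
  rw [Subgroup.mem_center_iff]
  intro g
  apply Subtype.ext
  apply Subtype.ext
  show g.1.val * s.1.val = s.1.val * g.1.val
  rw [hs, Matrix.mul_smul, Matrix.smul_mul, Matrix.mul_one, Matrix.one_mul]

end Center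

section Final
variable {F K : Type*} [Field F] [Fintype F] [Field K] [Fintype K]

theorem pomega6minus_iso {q : ℕ} (hF : Fintype.card F = q) (hK : Fintype.card K = q ^ 2)
    (a b : F) (hab : ∀ z₁ z₂ : F, z₁ ^ 2 + a * z₁ * z₂ + b * z₂ ^ 2 = 0 → z₁ = 0 ∧ z₂ = 0) :
    Nonempty (POmega F (quadFormMinus 2 F a b) ≃* PSU 4 K q) := by
  classical
  obtain ⟨E⟩ := exists_qext hF hK a b hab
  have hq2 : 2 ≤ q := by rw [← hF]; exact Fintype.one_lt_card
  have hq0 : q ≠ 0 := by omega
  have hd := minus_disc_ne_all a b hab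
  obtain ⟨e₁, e₂, he⟩ : ∃ e₁ e₂ : F, e₁ ^ 2 + a * e₁ * e₂ + b * e₂ ^ 2 = -1 := by
    by_cases h2 : (2 : F) = 0
    · exact ⟨1, 0, by linear_combination h2⟩
    · obtain ⟨v, hv⟩ := exists_rep h2 (qfMinus 0 F a b) (qfMinus_nondegenerate a b hd)
        (by simp) (-1) (neg_ne_zero.2 one_ne_zero)
      refine ⟨v (Sum.inr 0), v (Sum.inr 1), ?_⟩
      rw [qfMinus_apply] at hv
      simpa [quadFormMinus] using hv
  obtain ⟨Φ, hΦ⟩ : ∃ Φ, Φ = E.Phi6m e₁ e₂ he hd hq0 := ⟨_, rfl⟩
  have hpm : ∀ s t : ↥(SU 4 K q), Φ s = Φ t → s.1.val = t.1.val ∨ s.1.val = -t.1.val := by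
    intro s t h
    rw [hΦ] at h
    exact E.Phi6m_pm e₁ e₂ he hd hq0 s t h
  -- orders
  obtain ⟨A, hA⟩ : ∃ A, A = q ^ 2 - 1 := ⟨_, rfl⟩
  obtain ⟨B, hB⟩ : ∃ B, B = q ^ 4 - 1 := ⟨_, rfl⟩
  have hS : Nat.card ↥(SU 4 K q) = q ^ 6 * A * (q ^ 3 + 1) * B := by
    have h' : (q + 1) * Nat.card ↥(SU 4 K q) =
        q ^ 6 * ((q + 1) * (q ^ 2 - 1) * (q ^ 3 + 1) * (q ^ 4 - 1)) := by
      have h := Cfsg.Agent.S0278.result hK 4 (by norm_num)
      have e1 : ¬ Even 1 := by decide
      have e3 : ¬ Even 3 := by decide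
      simpa [Finset.prod_range_succ, e1, e3] using h
    rw [← hA, ← hB] at h'
    apply Nat.eq_of_mul_eq_mul_left (show 0 < q + 1 by omega)
    rw [h']
    ring
  have hO : Nat.card ↥(isometryGroup F (quadFormMinus 2 F a b)) =
      2 * (q ^ 6 * A * (q ^ 3 + 1) * B) := by
    have h' : Nat.card ↥(isometryGroup F (quadFormMinus 2 F a b)) =
        2 * q ^ 6 * (q ^ 3 + 1) * ((q ^ 2 - 1) * (q ^ 4 - 1)) := by
      have h := Cfsg.Agent.S0288.result hF 3 (by norm_num) a b hab
      simpa [Finset.prod_range_succ] using h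
    rw [← hA, ← hB] at h'
    rw [h']
    ring
  obtain ⟨N, hN⟩ : ∃ N, N = q ^ 6 * A * (q ^ 3 + 1) * B := ⟨_, rfl⟩
  rw [← hN] at hS hO
  have hNpos : 0 < N := by
    rw [← hS]
    exact Nat.card_pos
  have hki := Subgroup.card_mul_index Φ.ker
  rw [Subgroup.index_ker, hS] at hki
  have hri := Subgroup.card_mul_index Φ.range
  rw [hO] at hri
  have hΩi := Subgroup.card_mul_index (commutator ↥(isometryGroup F (quadFormMinus 2 F a b)))
  rw [hO] at hΩi
  -- the centre criterion
  have h3 : ∀ s, (∀ t, Φ (s * t) = Φ (t * s)) ↔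
      (QuotientGroup.mk' (Subgroup.center ↥(SU 4 K q))) s = 1 := by
    intro s
    rw [QuotientGroup.mk'_apply, QuotientGroup.eq_one_iff]
    constructor
    · intro h
      apply SU4_central_of_pm hK s
      intro t
      exact hpm (s * t) (t * s) (h t)
    · intro hs t
      rw [Subgroup.mem_center_iff] at hs
      rw [hs t]
  have key : commutator ↥(isometryGroup F (quadFormMinus 2 F a b)) = Φ.range := by
    by_cases h2 : (2 : F) = 0
    · haveI : CharP F 2 := CharTwo.of_one_ne_zero_of_two_eq_zero one_ne_zero h2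
      have hker : Nat.card Φ.ker = 1 := by
        apply card_eq_one_of_trivial
        intro g hg
        have h1 : Φ g = Φ 1 := by rw [map_one]; exact hg
        have h2K : (2 : K) = 0 := by
          have := congrArg E.ι h2
          rwa [map_ofNat, map_zero] at this
        have hneg : ∀ M : Matrix (Fin 4) (Fin 4) K, -M = M := by
          intro M
          rw [neg_eq_iff_add_eq_zero, ← two_smul K M, h2K, zero_smul]
        rcases hpm g 1 h1 with h3 | h3
        · exact Subtype.ext (Subtype.ext h3)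
        · rw [hneg] at h3
          exact Subtype.ext (Subtype.ext h3)
      rw [hker, one_mul] at hki
      rw [hki] at hri
      have hidxR : Φ.range.index = 2 := by
        have : N * Φ.range.index = N * 2 := by rw [hri]; ring
        exact Nat.eq_of_mul_eq_mul_left hNpos this
      have hle := commutator_le_of_index_two _ hidxR
      have hidx : (commutator ↥(isometryGroup F (quadFormMinus 2 F a b))).index = 2 := by
        have h := Omega_index_char2 (qfMinus 2 F a b) (qfMinus_nondegenerate a b hd)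
          (Or.inr (by simp)) (by simp)
        rw [coe_qfMinus] at h
        exact h
      rw [hidx] at hΩi
      apply Subgroup.eq_of_le_of_card_ge hle
      rw [hki]
      omega
    · have hodd : Odd q := by
        rw [← hF, Nat.odd_iff]
        exact FiniteField.odd_card_of_char_ne_two (ringChar_ne_two_of_two_ne_zero h2)
      have h2K : (2 : K) ≠ 0 := by
        intro h
        apply h2
        apply E.ι_injective
        rw [map_ofNat, map_zero]
        exact h
      let z : ↥(SU 4 K q) := ⟨negOne4, by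
        have h := Cfsg.Agent.Helper3.scalar_pres (n := 4) (q := q) (-1 : K) (by
          rw [hodd.neg_one_pow]
          ring)
        have e : ((-1 : K) • (1 : Matrix (Fin 4) (Fin 4) K)) = -1 := by
          rw [neg_smul, one_smul]
        rw [e] at h
        exact h⟩
      have hz : z.1.val = -1 := rfl
      have hzker : z ∈ Φ.ker := by
        rw [MonoidHom.mem_ker, ← map_one Φ, hΦ, E.Phi6m_eq_iff]
        intro u
        rw [hz]
        show -1 * E.sd u * (-1 : Matrix (Fin 4) (Fin 4) K)ᵀ =
          (1 : Matrix (Fin 4) (Fin 4) K) * E.sd u * (1 : Matrix (Fin 4) (Fin 4) K)ᵀ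
        simp
      have hz1 : z ≠ 1 := by
        intro h
        have h4 : z.1.val 0 0 = (1 : ↥(SU 4 K q)).1.val 0 0 := by rw [h]
        rw [hz] at h4
        have h5 : (-1 : K) = 1 := by simpa using h4
        exact h2K (by linear_combination (-1 : K) * h5)
      have hker : Nat.card Φ.ker = 2 := by
        apply le_antisymm
        · apply card_le_two_of_pair _ z
          intro g hg
          have h1 : Φ g = Φ 1 := by rw [map_one]; exact hg
          rcases hpm g 1 h1 with h3 | h3
          · left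
            exact Subtype.ext (Subtype.ext h3)
          · right
            exact Subtype.ext (Subtype.ext h3)
        · have : 1 < Nat.card Φ.ker := by
            rw [Subgroup.one_lt_card_iff_ne_bot]
            intro hbot
            rw [hbot, Subgroup.mem_bot] at hzker
            exact hz1 hzker
          omega
      rw [hker] at hki
      have hidx : (commutator ↥(isometryGroup F (quadFormMinus 2 F a b))).index = 4 := by
        have h := Omega_index_odd h2 (by simp) (qfMinus 2 F a b) (qfMinus_nondegenerate a b hd)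
        rw [coe_qfMinus] at h
        exact h
      rw [hidx] at hΩi
      have hidxR : Φ.range.index = 4 := by
        have : Nat.card ↥Φ.range * Φ.range.index = Nat.card ↥Φ.range * 4 := by
          rw [hri]
          omega
        exact Nat.eq_of_mul_eq_mul_left (by omega) this
      have hperf : commutator ↥(Omega F (quadFormMinus 2 F a b)) = ⊤ := by
        have h := Omega_perfect (by simp) (qfMinus 2 F a b) (qfMinus_nondegenerate a b hd)
          (Omega_eq_siegel h2 (by simp) (qfMinus 2 F a b) (qfMinus_nondegenerate a b hd))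
        rw [coe_qfMinus] at h
        exact h
      have hsub : Φ.range.subgroupOf (Omega F (quadFormMinus 2 F a b)) = ⊤ := by
        apply eq_top_of_perfect_index_le_four hperf
        show Φ.range.relIndex (Omega F (quadFormMinus 2 F a b)) ≤ 4
        have h5 : Φ.range.relIndex (Omega F (quadFormMinus 2 F a b)) ≤ Φ.range.relIndex ⊤ :=
          Subgroup.relIndex_le_of_le_right le_top (by
            rw [Subgroup.relIndex_top_right, hidxR]
            norm_num)
        rw [Subgroup.relIndex_top_right, hidxR] at h5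
        exact h5
      have hle : commutator ↥(isometryGroup F (quadFormMinus 2 F a b)) ≤ Φ.range :=
        Subgroup.subgroupOf_eq_top.1 hsub
      apply Subgroup.eq_of_le_of_card_ge hle
      omega
  have h1 : ∀ s, Φ s ∈ commutator ↥(isometryGroup F (quadFormMinus 2 F a b)) := by
    intro s
    rw [key]
    exact ⟨s, rfl⟩
  have h2 : Nat.card ↥(commutator ↥(isometryGroup F (quadFormMinus 2 F a b))) ≤
      Nat.card ↥Φ.range := by rw [key]
  exact iso_of_hom_general Φ (QuotientGroup.mk' _) (QuotientGroup.mk'_surjective _) h1 h2 h3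

end Final

end Cfsg.Agent.Helper16
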