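import Cfsg.Agent.Helper16.QuadBasis

set_option autoImplicit false

namespace Cfsg.Agent.Helper16

open QuadraticMap Module

section Parity
variable {F V : Type*} [Field F] [AddCommGroup V] [Module F V]

/-- totally singular subspace -/
def TS (Q : QuadraticForm F V) (U : Submodule F V) : Prop := ∀ u ∈ U, Q u = 0

/-- orthogonal complement for the polar form -/
abbrev orth (Q : QuadraticForm F V) (U : Submodule F V) : Submodule F V :=
  LinearMap.BilinForm.orthogonal (polarBilin Q) U

theorem mem_orth (Q : QuadraticForm F V) (U : Submodule F V) (x : V) :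
    x ∈ orth Q U ↔ ∀ u ∈ U, polar Q u x = 0 := Iff.rfl

theorem TS.polar_eq_zero {Q : QuadraticForm F V} {U : Submodule F V} (hU : TS Q U) {x y : V}
    (hx : x ∈ U) (hy : y ∈ U) : polar Q x y = 0 := by
  unfold polar
  rw [hU _ (U.add_mem hx hy), hU x hx, hU y hy]
  simp

theorem TS.le_orth {Q : QuadraticForm F V} {U : Submodule F V} (hU : TS Q U) : U ≤ orth Q U :=
  fun _ hx _ hu => hU.polar_eq_zero hu hx

theorem TS.mono {Q : QuadraticForm F V} {U W : Submodule F V} (hW : TS Q W) (h : U ≤ W) :
    TS Q U := fun u hu => hW u (h hu)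

theorem TS.sup {Q : QuadraticForm F V} {A B : Submodule F V} (hA : TS Q A) (hB : TS Q B)
    (hAB : A ≤ orth Q B) : TS Q (A ⊔ B) := by
  intro x hx
  obtain ⟨a, ha, b, hb, rfl⟩ := Submodule.mem_sup.1 hx
  have h : polar Q b a = 0 := hAB ha b hb
  rw [qf_add, hA a ha, hB b hb, polar_comm, h]
  simp

theorem TS_span_singleton (Q : QuadraticForm F V) (x : V) (hx : Q x = 0) :
    TS Q (Submodule.span F {x}) := by
  intro u hu
  obtain ⟨c, rfl⟩ := Submodule.mem_span_singleton.1 hu
  rw [qf_smul, hx, mul_zero]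

theorem orth_sup (Q : QuadraticForm F V) (A B : Submodule F V) :
    orth Q (A ⊔ B) = orth Q A ⊓ orth Q B := by
  ext x
  rw [Submodule.mem_inf, mem_orth, mem_orth, mem_orth]
  constructor
  · intro h
    exact ⟨fun a ha => h a (Submodule.mem_sup_left ha), fun b hb => h b (Submodule.mem_sup_right hb)⟩
  · rintro ⟨h1, h3⟩ u hu
    obtain ⟨a, ha, b, hb, rfl⟩ := Submodule.mem_sup.1 hu
    rw [polar_add_left, h1 a ha, h3 b hb, add_zero]

theorem mem_orth_span_singleton (Q : QuadraticForm F V) (u x : V) :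
    x ∈ orth Q (Submodule.span F {u}) ↔ polar Q u x = 0 := by
  rw [mem_orth]
  constructor
  · intro h
    exact h u (Submodule.mem_span_singleton_self u)
  · intro h y hy
    obtain ⟨c, rfl⟩ := Submodule.mem_span_singleton.1 hy
    rw [polar_smul_left, h, smul_zero]

/-- a subspace inside the union of two subspaces is inside one of them -/
theorem le_or_le_of_union (X U W : Submodule F V) (h : ∀ x ∈ X, x ∈ U ∨ x ∈ W) :
    X ≤ U ∨ X ≤ W := by
  by_contra hcon
  push_neg at hcon
  obtain ⟨hU, hW⟩ := hcon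
  obtain ⟨x, hxX, hxU⟩ := SetLike.not_le_iff_exists.1 hU
  obtain ⟨y, hyX, hyW⟩ := SetLike.not_le_iff_exists.1 hW
  have hxW : x ∈ W := (h x hxX).resolve_left hxU
  have hyU : y ∈ U := (h y hyX).resolve_right hyW
  rcases h (x + y) (X.add_mem hxX hyX) with h1 | h1
  · exact hxU ((U.add_mem_iff_left hyU).1 h1)
  · exact hyW ((W.add_mem_iff_right hxW).1 h1)

variable [FiniteDimensional F V]

theorem finrank_orth (Q : QuadraticForm F V) (hQ : (polarBilin Q).Nondegenerate)
    (U : Submodule F V) : finrank F (orth Q U) = finrank F V - finrank F U :=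
  LinearMap.BilinForm.finrank_orthogonal hQ U

/-- a totally singular subspace of half dimension is its own orthogonal complement -/
theorem orth_eq_self (Q : QuadraticForm F V) (hQ : (polarBilin Q).Nondegenerate) {m : ℕ}
    (hV : finrank F V = 2 * m) (U : Submodule F V) (hU : TS Q U) (hUm : finrank F U = m) :
    orth Q U = U := by
  symm
  apply Submodule.eq_of_le_of_finrank_eq hU.le_orth
  rw [finrank_orth Q hQ, hV, hUm]
  omega

theorem finrank_sup_span (U : Submodule F V) (u : V) (hu : u ∉ U) :
    finrank F (U ⊔ Submodule.span F {u} : Submodule F V) = finrank F U + 1 := by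
  have hu0 : u ≠ 0 := by
    rintro rfl
    exact hu U.zero_mem
  have hdisj : U ⊓ Submodule.span F {u} = ⊥ := by
    rw [eq_bot_iff]
    intro x hx
    obtain ⟨hxU, hxs⟩ := Submodule.mem_inf.1 hx
    obtain ⟨c, rfl⟩ := Submodule.mem_span_singleton.1 hxs
    by_cases hc : c = 0
    · rw [hc, zero_smul]
      exact Submodule.zero_mem _
    · exfalso
      apply hu
      have h1 := U.smul_mem c⁻¹ hxU
      rwa [smul_smul, inv_mul_cancel₀ hc, one_smul] at h1
  have h := Submodule.finrank_sup_add_finrank_inf_eq U (Submodule.span F {u})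
  rw [hdisj, finrank_bot, add_zero, finrank_span_singleton hu0] at h
  exact h

/-- singular vectors orthogonal to the intersection of two adjacent Lagrangians -/
theorem sing_in_orth_inf (Q : QuadraticForm F V) (hQ : (polarBilin Q).Nondegenerate) {m : ℕ}
    (hV : finrank F V = 2 * m) (U W : Submodule F V) (hU : TS Q U) (hUm : finrank F U = m)
    (hW : TS Q W) (hWm : finrank F W = m) (hUW : finrank F (U ⊓ W : Submodule F V) + 1 = m)
    (x : V) (hx : x ∈ orth Q (U ⊓ W)) (hQx : Q x = 0) : x ∈ U ∨ x ∈ W := by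
  have hUo : U ≤ orth Q (U ⊓ W) := fun y hy d hd => hU.polar_eq_zero hd.1 hy
  have hWo : W ≤ orth Q (U ⊓ W) := fun y hy d hd => hW.polar_eq_zero hd.2 hy
  have hsup : U ⊔ W = orth Q (U ⊓ W) := by
    apply Submodule.eq_of_le_of_finrank_eq (sup_le hUo hWo)
    have h := Submodule.finrank_sup_add_finrank_inf_eq U W
    rw [finrank_orth Q hQ, hV]
    omega
  rw [← hsup] at hx
  obtain ⟨y, hy, z, hz, rfl⟩ := Submodule.mem_sup.1 hx
  rw [qf_add, hU y hy, hW z hz, zero_add, zero_add] at hQx
  by_cases hzU : z ∈ U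
  · exact Or.inl (U.add_mem hy hzU)
  · right
    suffices hyW : y ∈ W from W.add_mem hyW hz
    by_contra hyW
    have hyD : y ∉ U ⊓ W := fun h => hyW h.2
    have hspan : (U ⊓ W) ⊔ Submodule.span F {y} = U := by
      apply Submodule.eq_of_le_of_finrank_le
      · exact sup_le inf_le_left ((Submodule.span_singleton_le_iff_mem y U).2 hy)
      · rw [finrank_sup_span _ y hyD]
        omega
    apply hzU
    rw [← orth_eq_self Q hQ hV U hU hUm, ← hspan, orth_sup, Submodule.mem_inf,
      mem_orth_span_singleton]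
    exact ⟨fun d hd => hW.polar_eq_zero hd.2 hz, hQx⟩

/-- adjacency lemma -/
theorem adjacent_inf (Q : QuadraticForm F V) (hQ : (polarBilin Q).Nondegenerate) {m : ℕ}
    (hV : finrank F V = 2 * m) (U W X : Submodule F V) (hU : TS Q U) (hUm : finrank F U = m)
    (hW : TS Q W) (hWm : finrank F W = m) (hX : TS Q X) (hXm : finrank F X = m)
    (hUW : finrank F (U ⊓ W : Submodule F V) + 1 = m) :
    finrank F (X ⊓ U : Submodule F V) = finrank F (X ⊓ W : Submodule F V) + 1 ∨
      finrank F (X ⊓ W : Submodule F V) = finrank F (X ⊓ U : Submodule F V) + 1 := by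
  have hUo : U ≤ orth Q (U ⊓ W) := fun y hy d hd => hU.polar_eq_zero hd.1 hy
  have hWo : W ≤ orth Q (U ⊓ W) := fun y hy d hd => hW.polar_eq_zero hd.2 hy
  have hdim : finrank F (X ⊓ orth Q (U ⊓ W) : Submodule F V) =
      finrank F (X ⊓ (U ⊓ W) : Submodule F V) + 1 := by
    have h1 : X ⊓ orth Q (U ⊓ W) = orth Q (X ⊔ (U ⊓ W)) := by
      rw [orth_sup, orth_eq_self Q hQ hV X hX hXm]
    have h3 := Submodule.finrank_sup_add_finrank_inf_eq X (U ⊓ W)
    have h4 : finrank F (X ⊓ (U ⊓ W) : Submodule F V) ≤ finrank F (U ⊓ W : Submodule F V) :=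
      Submodule.finrank_mono inf_le_right
    rw [h1, finrank_orth Q hQ, hV]
    omega
  have hle := le_or_le_of_union (X ⊓ orth Q (U ⊓ W)) U W (fun x hx =>
    sing_in_orth_inf Q hQ hV U W hU hUm hW hWm hUW x hx.2 (hX x hx.1))
  rcases hle with h | h
  · left
    have h1 : X ⊓ U = X ⊓ orth Q (U ⊓ W) :=
      le_antisymm (inf_le_inf_left X hUo) (le_inf inf_le_left h)
    have h3 : X ⊓ W = X ⊓ (U ⊓ W) := by
      apply le_antisymm
      · intro x hx
        exact ⟨hx.1, h ⟨hx.1, hWo hx.2⟩, hx.2⟩
      · exact inf_le_inf_left X inf_le_right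
    rw [h1, h3, hdim]
  · right
    have h1 : X ⊓ W = X ⊓ orth Q (U ⊓ W) :=
      le_antisymm (inf_le_inf_left X hWo) (le_inf inf_le_left h)
    have h3 : X ⊓ U = X ⊓ (U ⊓ W) := by
      apply le_antisymm
      · intro x hx
        exact ⟨hx.1, hx.2, h ⟨hx.1, hUo hx.2⟩⟩
      · exact inf_le_inf_left X inf_le_left
    rw [h1, h3, hdim]

/-- chain lemma: move one step from `W` towards `U` -/
theorem exists_adjacent (Q : QuadraticForm F V) (hQ : (polarBilin Q).Nondegenerate) {m : ℕ}
    (hV : finrank F V = 2 * m) (U W : Submodule F V) (hU : TS Q U) (hUm : finrank F U = m)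
    (hW : TS Q W) (hWm : finrank F W = m) (hne : U ≠ W) :
    ∃ W' : Submodule F V, TS Q W' ∧ finrank F W' = m ∧
      finrank F (W ⊓ W' : Submodule F V) + 1 = m ∧
      finrank F (U ⊓ W' : Submodule F V) = finrank F (U ⊓ W : Submodule F V) + 1 := by
  have hnle : ¬ U ≤ W := fun h => hne (Submodule.eq_of_le_of_finrank_eq h (by rw [hUm, hWm]))
  obtain ⟨u, huU, huW⟩ := SetLike.not_le_iff_exists.1 hnle
  have hQu : Q u = 0 := hU u huU
  obtain ⟨H, hH⟩ : ∃ H : Submodule F V, H = W ⊓ orth Q (Submodule.span F {u}) := ⟨_, rfl⟩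
  have hHW : H ≤ W := by rw [hH]; exact inf_le_left
  have hHm : finrank F H + 1 = m := by
    have h1 : H = orth Q (W ⊔ Submodule.span F {u}) := by
      rw [hH, orth_sup, orth_eq_self Q hQ hV W hW hWm]
    rw [h1, finrank_orth Q hQ, hV, finrank_sup_span W u huW, hWm]
    have hm : 1 ≤ m := by
      have hu0 : u ≠ 0 := by
        rintro rfl
        exact huW W.zero_mem
      have := Submodule.finrank_mono ((Submodule.span_singleton_le_iff_mem u U).2 huU)
      rw [finrank_span_singleton hu0, hUm] at this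
      exact this
    omega
  have huH : u ∉ H := fun h => huW (hHW h)
  have hTS : TS Q (H ⊔ Submodule.span F {u}) := by
    apply TS.sup (hW.mono hHW) (TS_span_singleton Q u hQu)
    intro x hx
    rw [hH] at hx
    exact hx.2
  have hW'm : finrank F (H ⊔ Submodule.span F {u} : Submodule F V) = m := by
    rw [finrank_sup_span H u huH]
    exact hHm
  have hinf : W ⊓ (H ⊔ Submodule.span F {u}) = H := by
    apply le_antisymm
    · intro x hx
      obtain ⟨hxW, hxs⟩ := Submodule.mem_inf.1 hx
      obtain ⟨h, hh, y, hy, rfl⟩ := Submodule.mem_sup.1 hxs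
      obtain ⟨c, rfl⟩ := Submodule.mem_span_singleton.1 hy
      have hcu : c • u ∈ W := (W.add_mem_iff_right (hHW hh)).1 hxW
      by_cases hc : c = 0
      · rw [hc, zero_smul, add_zero]
        exact hh
      · exfalso
        apply huW
        have h1 := W.smul_mem c⁻¹ hcu
        rwa [smul_smul, inv_mul_cancel₀ hc, one_smul] at h1
    · exact le_inf hHW le_sup_left
  refine ⟨H ⊔ Submodule.span F {u}, hTS, hW'm, by rw [hinf]; exact hHm, ?_⟩
  have hUWH : U ⊓ W ≤ H := by
    intro x hx
    rw [hH]
    exact ⟨hx.2, (mem_orth_span_singleton Q u x).2 (hU.polar_eq_zero huU hx.1)⟩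
  have hge : finrank F (U ⊓ W : Submodule F V) + 1 ≤
      finrank F (U ⊓ (H ⊔ Submodule.span F {u}) : Submodule F V) := by
    rw [← finrank_sup_span (U ⊓ W) u (fun h => huW h.2)]
    apply Submodule.finrank_mono
    apply sup_le
    · exact le_inf inf_le_left (hUWH.trans le_sup_left)
    · rw [Submodule.span_singleton_le_iff_mem]
      exact ⟨huU, Submodule.mem_sup_right (Submodule.mem_span_singleton_self u)⟩
  rcases adjacent_inf Q hQ hV W (H ⊔ Submodule.span F {u}) U hW hWm hTS hW'm hU hUm
    (by rw [hinf]; exact hHm) with h | h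
  · omega
  · exact h

/-- the parity theorem for three Lagrangians -/
theorem parity_three (Q : QuadraticForm F V) (hQ : (polarBilin Q).Nondegenerate) {m : ℕ}
    (hV : finrank F V = 2 * m) (n : ℕ) : ∀ (U W X : Submodule F V), TS Q U → finrank F U = m →
    TS Q W → finrank F W = m → TS Q X → finrank F X = m →
    m - finrank F (U ⊓ W : Submodule F V) = n →
    Even ((m - finrank F (U ⊓ W : Submodule F V)) + (m - finrank F (W ⊓ X : Submodule F V)) +
      (m - finrank F (U ⊓ X : Submodule F V))) := by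
  induction n with
  | zero =>
    intro U W X hU hUm hW hWm hX hXm hn
    have h1 : finrank F (U ⊓ W : Submodule F V) ≤ m := by
      rw [← hUm]
      exact Submodule.finrank_mono inf_le_left
    have hUW : U ⊓ W = U := Submodule.eq_of_le_of_finrank_eq inf_le_left (by rw [hUm]; omega)
    have hUW' : U ⊓ W = W := Submodule.eq_of_le_of_finrank_eq inf_le_right (by rw [hWm]; omega)
    have hUeqW : U = W := by rw [← hUW, hUW']
    subst hUeqW
    rw [hn, zero_add]
    exact ⟨_, rfl⟩
  | succ n ih =>
    intro U W X hU hUm hW hWm hX hXm hn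
    have hne : U ≠ W := by
      rintro rfl
      rw [inf_idem, hUm] at hn
      omega
    obtain ⟨W', hW', hW'm, hWW', hUW'⟩ := exists_adjacent Q hQ hV U W hU hUm hW hWm hne
    have h1 : finrank F (U ⊓ W : Submodule F V) ≤ m := by
      rw [← hUm]
      exact Submodule.finrank_mono inf_le_left
    have h3 : finrank F (U ⊓ W' : Submodule F V) ≤ m := by
      rw [← hUm]
      exact Submodule.finrank_mono inf_le_left
    have h4 : finrank F (W ⊓ X : Submodule F V) ≤ m := by
      rw [← hXm]
      exact Submodule.finrank_mono inf_le_right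
    have h5 : finrank F (W' ⊓ X : Submodule F V) ≤ m := by
      rw [← hXm]
      exact Submodule.finrank_mono inf_le_right
    have h6 : finrank F (U ⊓ X : Submodule F V) ≤ m := by
      rw [← hXm]
      exact Submodule.finrank_mono inf_le_right
    have hih := ih U W' X hU hUm hW' hW'm hX hXm (by omega)
    have hadj := adjacent_inf Q hQ hV W W' X hW hWm hW' hW'm hX hXm hWW'
    rw [inf_comm X W, inf_comm X W'] at hadj
    rw [Nat.even_iff] at hih ⊢
    omega

end Parity

end Cfsg.Agent.Helper16
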