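import Cfsg.Agent.Helper16.ParityPlus
import Cfsg.Agent.Helper16.SpinorMore
import Cfsg.Agent.Helper16.SpinorHom

set_option autoImplicit false
open Cfsg

namespace Cfsg.Agent.Helper16

open QuadraticMap Module

section MapG
variable {ι : Type} [Fintype ι] [DecidableEq ι] {F : Type*} [Field F]

/-- image of a subspace under an invertible matrix -/
def mapG (g : Matrix.GeneralLinearGroup ι F) (E : Submodule F (ι → F)) : Submodule F (ι → F) :=
  E.map (Matrix.mulVecLin (g : Matrix ι ι F))

theorem mem_mapG (g : Matrix.GeneralLinearGroup ι F) (E : Submodule F (ι → F)) (x : ι → F) :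
    x ∈ mapG g E ↔ ∃ e ∈ E, (g : Matrix ι ι F).mulVec e = x := by
  unfold mapG
  rw [Submodule.mem_map]
  rfl

theorem mulVecLin_injective (g : Matrix.GeneralLinearGroup ι F) :
    Function.Injective (Matrix.mulVecLin (g : Matrix ι ι F)) := by
  intro x y h
  have h1 := congrArg (fun z => ((g⁻¹ : Matrix.GeneralLinearGroup ι F) : Matrix ι ι F).mulVec z) h
  simp only [Matrix.mulVecLin_apply, Matrix.mulVec_mulVec] at h1
  rw [← Units.val_mul, inv_mul_cancel] at h1
  simpa using h1

theorem finrank_mapG (g : Matrix.GeneralLinearGroup ι F) (E : Submodule F (ι → F)) :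
    finrank F (mapG g E) = finrank F E :=
  (Submodule.equivMapOfInjective _ (mulVecLin_injective g) E).finrank_eq.symm

theorem mapG_mul (g h : Matrix.GeneralLinearGroup ι F) (E : Submodule F (ι → F)) :
    mapG (g * h) E = mapG g (mapG h E) := by
  unfold mapG
  rw [Units.val_mul, Matrix.mulVecLin_mul, Submodule.map_comp]

theorem mapG_inf (g : Matrix.GeneralLinearGroup ι F) (A B : Submodule F (ι → F)) :
    mapG g (A ⊓ B) = mapG g A ⊓ mapG g B :=
  Submodule.map_inf _ (mulVecLin_injective g)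

theorem mapG_one (E : Submodule F (ι → F)) : mapG (1 : Matrix.GeneralLinearGroup ι F) E = E := by
  unfold mapG
  rw [Units.val_one, Matrix.mulVecLin_one]
  exact Submodule.map_id E

variable (Q : QuadraticForm F (ι → F))

theorem TS_mapG (g : Matrix.GeneralLinearGroup ι F)
    (hg : ∀ v, Q v = 0 → Q ((g : Matrix ι ι F).mulVec v) = 0) (E : Submodule F (ι → F))
    (hE : TS Q E) : TS Q (mapG g E) := by
  intro x hx
  obtain ⟨e, he, rfl⟩ := (mem_mapG g E x).1 hx
  exact hg e (hE e he)

/-- the "distance" between a Lagrangian and its image -/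
noncomputable def lagDist (m : ℕ) (E : Submodule F (ι → F)) (g : Matrix.GeneralLinearGroup ι F) :
    ℕ := m - finrank F (E ⊓ mapG g E : Submodule F (ι → F))

theorem lagDist_parity (hQ : (polarBilin Q).Nondegenerate) {m : ℕ}
    (hV : finrank F (ι → F) = 2 * m) (E : Submodule F (ι → F)) (hE : TS Q E)
    (hEm : finrank F E = m) (g h : Matrix.GeneralLinearGroup ι F)
    (hg : ∀ v, Q v = 0 → Q ((g : Matrix ι ι F).mulVec v) = 0)
    (hh : ∀ v, Q v = 0 → Q ((h : Matrix ι ι F).mulVec v) = 0) :
    Even (lagDist m E g + lagDist m E h + lagDist m E (g * h)) := by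
  have hgh : ∀ v, Q v = 0 → Q (((g * h : Matrix.GeneralLinearGroup ι F) : Matrix ι ι F).mulVec v) = 0 := by
    intro v hv
    rw [Units.val_mul, ← Matrix.mulVec_mulVec]
    exact hg _ (hh v hv)
  have h1 := parity_three Q hQ hV _ E (mapG g E) (mapG (g * h) E) hE hEm
    (TS_mapG Q g hg E hE) ((finrank_mapG g E).trans hEm) (TS_mapG Q (g * h) hgh E hE)
    ((finrank_mapG (g * h) E).trans hEm) rfl
  have h3 : finrank F (mapG g E ⊓ mapG (g * h) E : Submodule F (ι → F)) =
      finrank F (E ⊓ mapG h E : Submodule F (ι → F)) := by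
    rw [mapG_mul, ← mapG_inf, finrank_mapG]
  rw [h3] at h1
  exact h1

theorem lagDist_one {m : ℕ} (E : Submodule F (ι → F)) (hEm : finrank F E = m) :
    lagDist m E (1 : Matrix.GeneralLinearGroup ι F) = 0 := by
  unfold lagDist
  rw [mapG_one, inf_idem, hEm, Nat.sub_self]

theorem zmod2_add_eq (x y z : ZMod 2) (h : x + y + z = 0) : z = x + y := by
  revert x y z
  decide

/-- the parity homomorphism on a group of singularity-preserving matrices -/
noncomputable def parHom (hQ : (polarBilin Q).Nondegenerate) {m : ℕ}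
    (hV : finrank F (ι → F) = 2 * m) (E : Submodule F (ι → F)) (hE : TS Q E)
    (hEm : finrank F E = m) (H : Subgroup (Matrix.GeneralLinearGroup ι F))
    (hH : ∀ g ∈ H, ∀ v, Q v = 0 → Q ((g : Matrix ι ι F).mulVec v) = 0) :
    ↥H →* Multiplicative (ZMod 2) where
  toFun g := Multiplicative.ofAdd ((lagDist m E (g : Matrix.GeneralLinearGroup ι F) : ℕ) : ZMod 2)
  map_one' := by
    rw [Subgroup.coe_one, lagDist_one E hEm]
    rfl
  map_mul' g h := by
    have h1 := lagDist_parity Q hQ hV E hE hEm g h (hH g g.2) (hH h h.2)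
    have h0 : ((lagDist m E (g : Matrix.GeneralLinearGroup ι F) + lagDist m E (h : Matrix.GeneralLinearGroup ι F) +
        lagDist m E ((g : Matrix.GeneralLinearGroup ι F) * h) : ℕ) : ZMod 2) = 0 :=
      (ZMod.natCast_eq_zero_iff_even).2 h1
    push_cast at h0
    rw [← ofAdd_add, Subgroup.coe_mul]
    exact congrArg _ (zmod2_add_eq _ _ _ h0)

theorem parHom_eq_one_iff (hQ : (polarBilin Q).Nondegenerate) {m : ℕ}
    (hV : finrank F (ι → F) = 2 * m) (E : Submodule F (ι → F)) (hE : TS Q E)
    (hEm : finrank F E = m) (H : Subgroup (Matrix.GeneralLinearGroup ι F))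
    (hH : ∀ g ∈ H, ∀ v, Q v = 0 → Q ((g : Matrix ι ι F).mulVec v) = 0) (g : ↥H) :
    parHom Q hQ hV E hE hEm H hH g = 1 ↔
      Even (lagDist m E (g : Matrix.GeneralLinearGroup ι F)) := by
  show Multiplicative.ofAdd ((lagDist m E (g : Matrix.GeneralLinearGroup ι F) : ℕ) : ZMod 2) = 1 ↔ _
  rw [ofAdd_eq_one, ZMod.natCast_eq_zero_iff_even]

theorem isom_sing (g : ↥(isometryGroup F ⇑Q)) :
    ∀ v, Q v = 0 → Q (((g : Matrix.GeneralLinearGroup ι F) : Matrix ι ι F).mulVec v) = 0 := by
  intro v hv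
  rw [(mem_isometryGroup_iff _ _).1 g.2 v, hv]

/-- the parity homomorphism on the isometry group -/
noncomputable def parIso (hQ : (polarBilin Q).Nondegenerate) {m : ℕ}
    (hV : finrank F (ι → F) = 2 * m) (E : Submodule F (ι → F)) (hE : TS Q E)
    (hEm : finrank F E = m) : ↥(isometryGroup F ⇑Q) →* Multiplicative (ZMod 2) :=
  parHom Q hQ hV E hE hEm (isometryGroup F ⇑Q) (fun g hg => isom_sing Q ⟨g, hg⟩)

theorem parIso_eq_one_iff (hQ : (polarBilin Q).Nondegenerate) {m : ℕ}
    (hV : finrank F (ι → F) = 2 * m) (E : Submodule F (ι → F)) (hE : TS Q E)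
    (hEm : finrank F E = m) (g : ↥(isometryGroup F ⇑Q)) :
    parIso Q hQ hV E hE hEm g = 1 ↔
      Even (lagDist m E (g : Matrix.GeneralLinearGroup ι F)) :=
  parHom_eq_one_iff Q hQ hV E hE hEm _ _ g

theorem parIso_Omega (hQ : (polarBilin Q).Nondegenerate) {m : ℕ}
    (hV : finrank F (ι → F) = 2 * m) (E : Submodule F (ι → F)) (hE : TS Q E)
    (hEm : finrank F E = m) (g : ↥(isometryGroup F ⇑Q)) (hg : g ∈ Omega F ⇑Q) :
    Even (lagDist m E (g : Matrix.GeneralLinearGroup ι F)) := by
  rw [← parIso_eq_one_iff Q hQ hV E hE hEm g]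
  exact Abelianization.commutator_subset_ker _ hg

/-- a reflection moves a Lagrangian to an adjacent one -/
theorem lagDist_refl (hQ : (polarBilin Q).Nondegenerate) {m : ℕ}
    (hV : finrank F (ι → F) = 2 * m) (E : Submodule F (ι → F)) (hE : TS Q E)
    (hEm : finrank F E = m) (hm : 1 ≤ m) (v : ι → F) (hv : Q v ≠ 0) :
    lagDist m E (reflElt Q v : Matrix.GeneralLinearGroup ι F) = 1 := by
  have hvE : v ∉ E := fun h => hv (hE v h)
  have hoE := orth_eq_self Q hQ hV E hE hEm
  have key : E ⊓ mapG (reflElt Q v : Matrix.GeneralLinearGroup ι F) E =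
      orth Q (E ⊔ Submodule.span F {v}) := by
    rw [orth_sup, hoE]
    ext y
    rw [Submodule.mem_inf, Submodule.mem_inf, mem_mapG, mem_orth_span_singleton]
    constructor
    · rintro ⟨hy, x, hx, hxy⟩
      rw [reflElt_mulVec Q v hv, qrefl_apply] at hxy
      have hc : (Q v)⁻¹ * polar Q v x = 0 := by
        by_contra hc
        apply hvE
        have h1 : ((Q v)⁻¹ * polar Q v x) • v = x - y := by
          rw [← hxy]
          abel
        have h3 : ((Q v)⁻¹ * polar Q v x) • v ∈ E := by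
          rw [h1]
          exact E.sub_mem hx hy
        have h4 := E.smul_mem ((Q v)⁻¹ * polar Q v x)⁻¹ h3
        rwa [smul_smul, inv_mul_cancel₀ hc, one_smul] at h4
      rw [hc, zero_smul, sub_zero] at hxy
      subst hxy
      refine ⟨hy, ?_⟩
      rcases mul_eq_zero.1 hc with h | h
      · exact absurd (inv_eq_zero.1 h) hv
      · exact h
    · rintro ⟨hy, hpy⟩
      refine ⟨hy, y, hy, ?_⟩
      rw [reflElt_mulVec Q v hv, qrefl_of_orth Q v y hpy]
  unfold lagDist
  rw [key, finrank_orth Q hQ, hV, finrank_sup_span E v hvE, hEm]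
  omega

end MapG

end Cfsg.Agent.Helper16
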