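import Cfsg.Agent.Helper16.Parity
import Cfsg.Agent.Helper16.StdForms

set_option autoImplicit false
open Cfsg

namespace Cfsg.Agent.Helper16

open QuadraticMap Module

section TwoLag
variable {F V : Type*} [Field F] [AddCommGroup V] [Module F V] [FiniteDimensional F V]

/-- a totally singular subspace of dimension `m - 1` lies in exactly two Lagrangians -/
theorem exists_two_lagrangians (Q : QuadraticForm F V) (hQ : (polarBilin Q).Nondegenerate) {m : ℕ}
    (hV : finrank F V = 2 * m) (E : Submodule F V) (hE : TS Q E) (hEm : finrank F E = m)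
    (U : Submodule F V) (hU : TS Q U) (hUm : finrank F U + 1 = m) :
    ∃ W₁ W₂ : Submodule F V, W₁ ≠ W₂ ∧ (TS Q W₁ ∧ finrank F W₁ = m ∧ U ≤ W₁) ∧
      (TS Q W₂ ∧ finrank F W₂ = m ∧ U ≤ W₂) ∧
      ∀ W : Submodule F V, TS Q W → finrank F W = m → U ≤ W → W = W₁ ∨ W = W₂ := by
  have hdim : finrank F (E ⊓ orth Q U : Submodule F V) = finrank F (E ⊓ U : Submodule F V) + 1 := by
    have h1 : E ⊓ orth Q U = orth Q (E ⊔ U) := by
      rw [orth_sup, orth_eq_self Q hQ hV E hE hEm]
    have h3 := Submodule.finrank_sup_add_finrank_inf_eq E U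
    have h4 : finrank F (E ⊓ U : Submodule F V) ≤ finrank F U := Submodule.finrank_mono inf_le_right
    rw [h1, finrank_orth Q hQ, hV]
    omega
  have hnle : ¬ (E ⊓ orth Q U ≤ U) := by
    intro h
    have h1 : finrank F (E ⊓ orth Q U : Submodule F V) ≤ finrank F (E ⊓ U : Submodule F V) :=
      Submodule.finrank_mono (le_inf inf_le_left h)
    omega
  obtain ⟨x, hx, hxU⟩ := SetLike.not_le_iff_exists.1 hnle
  have hQx : Q x = 0 := hE x hx.1
  have hxo : ∀ u ∈ U, polar Q u x = 0 := hx.2
  have hex : ∃ y ∈ orth Q U, polar Q x y ≠ 0 := by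
    by_contra hcon
    push_neg at hcon
    apply hxU
    rw [← LinearMap.BilinForm.orthogonal_orthogonal hQ (polarBilin_isSymm Q).isRefl U]
    intro y hy
    have h1 : polar Q y x = 0 := by
      rw [polar_comm]
      exact hcon y hy
    exact h1
  obtain ⟨y₀, hy₀, hxy₀⟩ := hex
  obtain ⟨y, hy⟩ : ∃ y : V, y = y₀ + (-(Q y₀ / polar Q x y₀)) • x := ⟨_, rfl⟩
  have hQy : Q y = 0 := by
    have h1 := qf_lin2 Q 1 (-(Q y₀ / polar Q x y₀)) y₀ x
    rw [one_smul] at h1
    rw [hy, h1, hQx, polar_comm Q y₀ x]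
    field_simp
    ring
  have hxy : polar Q x y ≠ 0 := by
    rw [hy, polar_add_right, polar_smul_right, qf_polar_self, hQx]
    simpa using hxy₀
  have hyo : ∀ u ∈ U, polar Q u y = 0 := by
    intro u hu
    have h1 : polar Q u y₀ = 0 := hy₀ u hu
    rw [hy, polar_add_right, polar_smul_right, h1, hxo u hu]
    simp
  have hyU : y ∉ U := by
    intro h
    apply hxy
    rw [polar_comm]
    exact hxo y h
  have hTS₁ : TS Q (U ⊔ Submodule.span F {x}) := by
    apply TS.sup hU (TS_span_singleton Q x hQx)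
    intro u hu
    rw [mem_orth_span_singleton, polar_comm]
    exact hxo u hu
  have hTS₂ : TS Q (U ⊔ Submodule.span F {y}) := by
    apply TS.sup hU (TS_span_singleton Q y hQy)
    intro u hu
    rw [mem_orth_span_singleton, polar_comm]
    exact hyo u hu
  have hm₁ : finrank F (U ⊔ Submodule.span F {x} : Submodule F V) = m := by
    rw [finrank_sup_span U x hxU]
    exact hUm
  have hm₂ : finrank F (U ⊔ Submodule.span F {y} : Submodule F V) = m := by
    rw [finrank_sup_span U y hyU]
    exact hUm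
  have hne : U ⊔ Submodule.span F {x} ≠ U ⊔ Submodule.span F {y} := by
    intro h
    have hy1 : y ∈ U ⊔ Submodule.span F {x} := by
      rw [h]
      exact Submodule.mem_sup_right (Submodule.mem_span_singleton_self y)
    obtain ⟨u, hu, z, hz, huz⟩ := Submodule.mem_sup.1 hy1
    obtain ⟨c, rfl⟩ := Submodule.mem_span_singleton.1 hz
    apply hxy
    rw [← huz, polar_add_right, polar_smul_right, qf_polar_self, hQx, polar_comm, hxo u hu]
    simp
  refine ⟨_, _, hne, ⟨hTS₁, hm₁, le_sup_left⟩, ⟨hTS₂, hm₂, le_sup_left⟩, ?_⟩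
  intro W hW hWm hUW
  have hD : U = (U ⊔ Submodule.span F {x}) ⊓ (U ⊔ Submodule.span F {y}) := by
    apply Submodule.eq_of_le_of_finrank_le (le_inf le_sup_left le_sup_left)
    have hlt : (U ⊔ Submodule.span F {x}) ⊓ (U ⊔ Submodule.span F {y}) <
        U ⊔ Submodule.span F {x} := by
      apply lt_of_le_of_ne inf_le_left
      intro h
      apply hne
      exact Submodule.eq_of_le_of_finrank_eq (inf_eq_left.1 h) (by rw [hm₁, hm₂])
    have := Submodule.finrank_lt_finrank_of_lt hlt
    omega
  have hWo : W ≤ orth Q ((U ⊔ Submodule.span F {x}) ⊓ (U ⊔ Submodule.span F {y})) := by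
    rw [← hD]
    intro w hw u hu
    exact hW.polar_eq_zero (hUW hu) hw
  have hle := le_or_le_of_union W _ _ (fun w hw =>
    sing_in_orth_inf Q hQ hV _ _ hTS₁ hm₁ hTS₂ hm₂ (by rw [← hD]; exact hUm) w (hWo hw) (hW w hw))
  rcases hle with h | h
  · left
    exact Submodule.eq_of_le_of_finrank_eq h (by rw [hWm, hm₁])
  · right
    exact Submodule.eq_of_le_of_finrank_eq h (by rw [hWm, hm₂])

end TwoLag

section PlusSpaces
variable (m : ℕ) (F : Type*) [Field F]

theorem finrank_plus : finrank F (Fin m ⊕ Fin m → F) = 2 * m := by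
  rw [Module.finrank_fintype_fun_eq_card, Fintype.card_sum, Fintype.card_fin]
  ring

/-- the subspace `y = 0` -/
def subE : Submodule F (Fin m ⊕ Fin m → F) :=
  LinearMap.ker (LinearMap.funLeft F F (Sum.inr : Fin m → Fin m ⊕ Fin m))

/-- the subspace `x = 0` -/
def subE' : Submodule F (Fin m ⊕ Fin m → F) :=
  LinearMap.ker (LinearMap.funLeft F F (Sum.inl : Fin m → Fin m ⊕ Fin m))

variable {m F}

theorem mem_subE (v : Fin m ⊕ Fin m → F) : v ∈ subE m F ↔ ∀ i, v (Sum.inr i) = 0 := by
  rw [subE, LinearMap.mem_ker]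
  constructor
  · intro h i
    exact congrFun h i
  · intro h
    funext i
    exact h i

theorem mem_subE' (v : Fin m ⊕ Fin m → F) : v ∈ subE' m F ↔ ∀ i, v (Sum.inl i) = 0 := by
  rw [subE', LinearMap.mem_ker]
  constructor
  · intro h i
    exact congrFun h i
  · intro h
    funext i
    exact h i

theorem TS_subE : TS (qfPlus m F) (subE m F) := by
  intro v hv
  rw [qfPlus_apply]
  unfold Cfsg.quadFormPlus
  apply Finset.sum_eq_zero
  intro i _
  rw [(mem_subE v).1 hv i, mul_zero]

theorem TS_subE' : TS (qfPlus m F) (subE' m F) := by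
  intro v hv
  rw [qfPlus_apply]
  unfold Cfsg.quadFormPlus
  apply Finset.sum_eq_zero
  intro i _
  rw [(mem_subE' v).1 hv i, zero_mul]

theorem finrank_subE : finrank F (subE m F) = m := by
  have h := LinearMap.finrank_range_add_finrank_ker
    (LinearMap.funLeft F F (Sum.inr : Fin m → Fin m ⊕ Fin m))
  have hsurj : Function.Surjective (LinearMap.funLeft F F (Sum.inr : Fin m → Fin m ⊕ Fin m)) :=
    LinearMap.funLeft_surjective_of_injective _ _ _ Sum.inr_injective
  rw [LinearMap.range_eq_top.2 hsurj, finrank_top, finrank_plus,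
    Module.finrank_fintype_fun_eq_card, Fintype.card_fin] at h
  unfold subE
  omega

theorem finrank_subE' : finrank F (subE' m F) = m := by
  have h := LinearMap.finrank_range_add_finrank_ker
    (LinearMap.funLeft F F (Sum.inl : Fin m → Fin m ⊕ Fin m))
  have hsurj : Function.Surjective (LinearMap.funLeft F F (Sum.inl : Fin m → Fin m ⊕ Fin m)) :=
    LinearMap.funLeft_surjective_of_injective _ _ _ Sum.inl_injective
  rw [LinearMap.range_eq_top.2 hsurj, finrank_top, finrank_plus,
    Module.finrank_fintype_fun_eq_card, Fintype.card_fin] at h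
  unfold subE'
  omega

theorem subE_inf_subE' : subE m F ⊓ subE' m F = ⊥ := by
  rw [eq_bot_iff]
  intro v hv
  rw [Submodule.mem_bot]
  funext k
  rcases k with i | i
  · exact (mem_subE' v).1 hv.2 i
  · exact (mem_subE v).1 hv.1 i

theorem TS_of_plus (U : Submodule F (Fin m ⊕ Fin m → F))
    (h : ∀ w ∈ U, Cfsg.quadFormPlus m F w = 0) : TS (qfPlus m F) U := by
  intro w hw
  rw [qfPlus_apply]
  exact h w hw

end PlusSpaces

end Cfsg.Agent.Helper16
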