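import Cfsg.Agent.Helper16.Dickson
import Cfsg.Agent.Helper16.NondegTrans
import Cfsg.Agent.Helper16.StdForms

set_option autoImplicit false
open Cfsg

namespace Cfsg.Agent.Helper16

open QuadraticMap Module

section ThreeTransp
variable {ι : Type} [Fintype ι] [DecidableEq ι] {F : Type*} [Field F]

theorem rank_sub_one (Q : (ι → F) → F) (g : ↥(isometryGroup F Q)) :
    (((g : GL ι F) : Matrix ι ι F) - 1).rank = finrank F (movSub Q g) := by
  unfold Matrix.rank movSub
  have e : Matrix.mulVecLin (((g : GL ι F) : Matrix ι ι F) - 1) =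
      Matrix.mulVecLin ((g : GL ι F) : Matrix ι ι F) - LinearMap.id := by
    apply LinearMap.ext
    intro x
    rw [LinearMap.sub_apply, Matrix.mulVecLin_apply, Matrix.sub_mulVec, Matrix.one_mulVec]
    rfl
  rw [e]

variable [CharP F 2]

theorem rank_refl (Q : QuadraticForm F (ι → F)) (hQ : (polarBilin Q).Nondegenerate)
    (a : ι → F) (ha : Q a ≠ 0) :
    (((reflElt Q a : GL ι F) : Matrix ι ι F) - 1).rank = 1 := by
  have hmov : a ∉ movSub ⇑Q 1 := by
    intro h
    obtain ⟨x, hx⟩ := (mem_movSub _ _ _).1 h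
    rw [act_one, vec_add_self] at hx
    rw [← hx] at ha
    exact ha (map_zero Q)
  have h1 := finrank_fix_refl_mul_of_not_mem Q hQ 1 a ha hmov
  have h2 : fixSub ⇑Q 1 = ⊤ := by
    rw [eq_top_iff]
    intro x _
    rw [mem_fixSub, act_one]
  rw [h2, finrank_top, Module.finrank_fintype_fun_eq_card, mul_one] at h1
  have h3 := finrank_mov_add_fix ⇑Q (reflElt Q a)
  rw [rank_sub_one]
  omega

theorem eq_refl_of_rank_one (Q : QuadraticForm F (ι → F)) (hQ : (polarBilin Q).Nondegenerate)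
    (g : ↥(isometryGroup F ⇑Q)) (hr : (((g : GL ι F) : Matrix ι ι F) - 1).rank = 1) :
    ∃ a, Q a ≠ 0 ∧ g = reflElt Q a := by
  rw [rank_sub_one] at hr
  obtain ⟨⟨a, haM⟩, ha0, hspan⟩ := finrank_eq_one_iff'.1 hr
  have ha0' : a ≠ 0 := fun h => ha0 (Subtype.ext h)
  have hspan' : ∀ w ∈ movSub ⇑Q g, ∃ c : F, c • a = w := by
    intro w hw
    obtain ⟨c, hc⟩ := hspan ⟨w, hw⟩
    exact ⟨c, congrArg Subtype.val hc⟩
  obtain ⟨y, hy⟩ := (mem_movSub _ _ _).1 haM
  -- vectors orthogonal to `a` are fixed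
  have hfix : ∀ x, polar Q a x = 0 → act ⇑Q g x = x := by
    intro x hx
    rw [← mem_fixSub, ← orth_orth Q hQ (fixSub ⇑Q g), orth_fix Q hQ g, mem_orth]
    intro w hw
    obtain ⟨c, rfl⟩ := hspan' w hw
    rw [polar_smul_left, hx, smul_zero]
  have hfix' : ∀ x, act ⇑Q g x = x → polar Q a x = 0 := by
    intro x hx
    rw [← hy]
    exact polar_moved_fix Q g y x hx
  have hmove : ∀ x, ∃ c : F, act ⇑Q g x = x + c • a := by
    intro x
    obtain ⟨c, hc⟩ := hspan' (act ⇑Q g x + x) ((mem_movSub _ _ _).2 ⟨x, rfl⟩)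
    refine ⟨c, ?_⟩
    rw [hc, add_comm x, add_assoc, vec_add_self, add_zero]
  obtain ⟨x₀, hx₀⟩ : ∃ x, polar Q a x ≠ 0 := by
    by_contra hcon
    push Not at hcon
    exact ha0' (hQ.1 a hcon)
  have hkey : ∀ x, polar Q a x ≠ 0 → ∀ c : F, act ⇑Q g x = x + c • a → c * Q a = polar Q a x := by
    intro x hx c hc
    have hc0 : c ≠ 0 := by
      rintro rfl
      rw [zero_smul, add_zero] at hc
      exact hx (hfix' x hc)
    have hQx := act_Q ⇑Q g x
    rw [hc] at hQx
    have hQx' : Q (x + c • a) = Q x := hQx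
    rw [qf_add, qf_smul, polar_smul_right, smul_eq_mul, polar_comm Q x a] at hQx'
    have h3 : c * (c * Q a + polar Q a x) = 0 := by linear_combination hQx'
    rcases mul_eq_zero.1 h3 with h4 | h4
    · exact absurd h4 hc0
    · have := CharTwo.add_eq_zero.1 h4
      exact this
  obtain ⟨c₀, hc₀⟩ := hmove x₀
  have hQa : Q a ≠ 0 := by
    intro h0
    have := hkey x₀ hx₀ c₀ hc₀
    rw [h0, mul_zero] at this
    exact hx₀ this.symm
  refine ⟨a, hQa, ?_⟩
  apply act_ext
  intro x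
  rw [act_refl Q a hQa]
  by_cases hx : polar Q a x = 0
  · rw [hfix x hx, qrefl_of_orth Q a x hx]
  · obtain ⟨c, hc⟩ := hmove x
    have h5 := hkey x hx c hc
    rw [hc, qrefl_char2]
    congr 2
    rw [← h5]
    field_simp

theorem three_transp [Fintype F] (hF : ∀ x : F, x = 0 ∨ x = 1) (Q : QuadraticForm F (ι → F))
    (hQ : (polarBilin Q).Nondegenerate) (hcard : Fintype.card ι ≠ 4) (hn : 1 ≤ Fintype.card ι) :
    IsThreeTranspositionClass {g : ↥(isometryGroup F ⇑Q) |
      (((g : GL ι F) : Matrix ι ι F) - 1).rank = 1} := by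
  have hD : ∀ g : ↥(isometryGroup F ⇑Q), g ∈ {g : ↥(isometryGroup F ⇑Q) |
      (((g : GL ι F) : Matrix ι ι F) - 1).rank = 1} ↔ ∃ a, Q a ≠ 0 ∧ g = reflElt Q a := by
    intro g
    constructor
    · intro hg
      exact eq_refl_of_rank_one Q hQ g hg
    · rintro ⟨a, ha, rfl⟩
      exact rank_refl Q hQ a ha
  have hQ1 : ∀ a, Q a ≠ 0 → Q a = 1 := fun a ha => (hF (Q a)).resolve_left ha
  have h111 : (1 : F) + 1 + 1 ≠ 0 := by
    rw [CharTwo.add_self_eq_zero, zero_add]
    exact one_ne_zero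
  refine ⟨⟨?_, ?_⟩, ?_, ?_⟩
  · intro d hd
    obtain ⟨a, ha, rfl⟩ := (hD d).1 hd
    apply orderOf_eq_prime
    · rw [pow_two, reflElt_mul_self]
    · intro h1
      have h2 : (((reflElt Q a : GL ι F) : Matrix ι ι F) - 1).rank = 1 := hd
      rw [h1] at h2
      simp at h2
  · intro d hd e he
    obtain ⟨a, ha, rfl⟩ := (hD d).1 hd
    obtain ⟨b, hb, rfl⟩ := (hD e).1 he
    rcases hF (polar Q a b) with h0 | h1
    · left
      have hc : reflElt Q a * reflElt Q b * (reflElt Q a)⁻¹ = reflElt Q b := by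
        rw [reflElt_conj Q _ b hb, reflElt_mulVec Q a ha, qrefl_of_orth Q a b h0]
      rw [reflElt_inv] at hc
      rw [pow_two]
      calc reflElt Q a * reflElt Q b * (reflElt Q a * reflElt Q b)
          = (reflElt Q a * reflElt Q b * reflElt Q a) * reflElt Q b := by group
        _ = reflElt Q b * reflElt Q b := by rw [hc]
        _ = 1 := reflElt_mul_self Q b
    · right
      have hc1 : reflElt Q a * reflElt Q b * reflElt Q a = reflElt Q (a + b) := by
        have h3 := reflElt_conj Q (reflElt Q a) b hb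
        rw [reflElt_inv, reflElt_mulVec Q a ha, qrefl_char2, hQ1 a ha, h1, inv_one, one_mul,
          one_smul, add_comm b a] at h3
        exact h3
      have hc2 : reflElt Q b * reflElt Q a * reflElt Q b = reflElt Q (a + b) := by
        have h3 := reflElt_conj Q (reflElt Q b) a ha
        rw [reflElt_inv, reflElt_mulVec Q b hb, qrefl_char2, hQ1 b hb, polar_comm Q b a, h1,
          inv_one, one_mul, one_smul] at h3
        exact h3
      calc (reflElt Q a * reflElt Q b) ^ 3
          = (reflElt Q a * reflElt Q b * reflElt Q a) *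
            (reflElt Q b * reflElt Q a * reflElt Q b) := by
            rw [pow_succ, pow_two]
            simp only [mul_assoc]
        _ = 1 := by rw [hc1, hc2, reflElt_mul_self]
  · obtain ⟨a₀, ha₀⟩ := exists_nonsing Q hQ hn
    refine ⟨reflElt Q a₀, (hD _).2 ⟨a₀, ha₀, rfl⟩, ?_⟩
    ext g
    rw [hD]
    show _ ↔ IsConj (reflElt Q a₀) g
    rw [isConj_iff]
    constructor
    · rintro ⟨a, ha, rfl⟩
      obtain ⟨h, hh⟩ := witt_vector Q hQ a₀ a
        (by rintro rfl; exact ha₀ (map_zero Q)) (by rintro rfl; exact ha (map_zero Q))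
        (by rw [hQ1 a₀ ha₀, hQ1 a ha])
      refine ⟨h, ?_⟩
      rw [reflElt_conj Q h a₀ ha₀]
      congr 1
    · rintro ⟨c, rfl⟩
      exact ⟨_, by rw [(mem_isometryGroup_iff _ _).1 c.2 a₀]; exact ha₀,
        reflElt_conj Q c a₀ ha₀⟩
  · rw [eq_top_iff, ← cd2 Q hQ (Or.inr hcard)]
    apply Subgroup.closure_mono
    rintro x ⟨v, hv, hmat⟩
    have : x = reflElt Q v := isom_ext _ _ _ (by rw [hmat, reflElt_coe Q v hv])
    exact (hD x).2 ⟨v, hv, this⟩

end ThreeTransp

end Cfsg.Agent.Helper16
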